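/-
An element of order three with two-dimensional commutator space on a module over the field with
three elements, permuting the involutions of a four group.
-/
import Mathlib.RepresentationTheory.Basic
import Mathlib.LinearAlgebra.Dimension.Finite
import Mathlib.LinearAlgebra.FreeModule.Finite.Basic
import Mathlib.LinearAlgebra.Matrix.GeneralLinearGroup.Card
import Mathlib.LinearAlgebra.Matrix.ToLin
import Mathlib.FieldTheory.Finiteness
import Mathlib.Algebra.Field.ZMod

set_option autoImplicit false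
set_option linter.unusedSectionVars false

namespace Cfsg.Agent.CubicModule

open Module

instance : Fact (Nat.Prime 3) := ⟨Nat.prime_three⟩

variable {G : Type*} [Group G] {V : Type*} [AddCommGroup V] [Module (ZMod 3) V] [Finite V]

/-- In characteristic three `v + v + v = 0`. -/
theorem add3 (v : V) : v + v + v = 0 := by
  have h : ((3 : ℕ) : ZMod 3) • v = 0 := by rw [ZMod.natCast_self, zero_smul]
  rw [Nat.cast_smul_eq_nsmul] at h
  simpa [succ_nsmul] using h

theorem eq_zero_of_neg_eq {v : V} (h : -v = v) : v = 0 := by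
  have h3 := add3 v
  have h2 : v + v = 0 := by nth_rewrite 1 [← h]; exact neg_add_cancel v
  rwa [h2, zero_add] at h3

/-- The data: a faithful representation, an element `b` of order dividing three with small commutator
space, and a four group whose involutions are permuted cyclically by `b`. -/
structure QData (σ : Representation (ZMod 3) G V) where
  inj : Function.Injective σ
  b : G
  b3 : b ^ 3 = 1
  rank : finrank (ZMod 3) (LinearMap.range (σ b - 1)) ≤ 2
  q : Fin 3 → G
  q_ne : ∀ i, q i ≠ 1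
  q_sq : ∀ i, q i * q i = 1
  q_mul : ∀ i, q i * q (i + 1) = q (i + 2)
  q_comm : ∀ i j, q i * q j = q j * q i
  q_conj : ∀ i, b * q i * b⁻¹ = q (i + 1)

variable {σ : Representation (ZMod 3) G V}

theorem mul_apply' (x y : G) (v : V) : σ (x * y) v = σ x (σ y v) := by
  rw [map_mul]; rfl

theorem one_apply' (v : V) : σ 1 v = v := by rw [map_one]; rfl

theorem f11 (i : Fin 3) : i + 1 + 1 = i + 2 := by revert i; decide
theorem f21 (i : Fin 3) : i + 2 + 1 = i := by revert i; decide
theorem f12 (i : Fin 3) : i + 1 + 2 = i := by revert i; decide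
theorem f22 (i : Fin 3) : i + 2 + 2 = i + 1 := by revert i; decide

namespace QData

variable (D : QData σ)

/-- The weight space of the four group on which `q i` is trivial and the others are `-1`. -/
def N (i : Fin 3) : Submodule (ZMod 3) V :=
  LinearMap.ker (σ (D.q i) - 1) ⊓ LinearMap.ker (σ (D.q (i + 1)) + 1)

theorem mem_N {i : Fin 3} {v : V} :
    v ∈ D.N i ↔ σ (D.q i) v = v ∧ σ (D.q (i + 1)) v = -v := by
  simp [N, sub_eq_zero, add_eq_zero_iff_eq_neg]

theorem N_third {i : Fin 3} {v : V} (hv : v ∈ D.N i) : σ (D.q (i + 2)) v = -v := by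
  rw [mem_N] at hv
  rw [← D.q_mul, mul_apply', hv.2, map_neg, hv.1]

theorem apply_sq (i : Fin 3) (v : V) : σ (D.q i) (σ (D.q i) v) = v := by
  rw [← mul_apply', D.q_sq, one_apply']

theorem apply_comm (i j : Fin 3) (v : V) :
    σ (D.q i) (σ (D.q j) v) = σ (D.q j) (σ (D.q i) v) := by
  rw [← mul_apply', D.q_comm, mul_apply']

theorem b_N {i : Fin 3} {v : V} (hv : v ∈ D.N i) : σ D.b v ∈ D.N (i + 1) := by
  rw [mem_N] at hv ⊢
  have hc : ∀ j, σ (D.q (j + 1)) (σ D.b v) = σ D.b (σ (D.q j) v) := by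
    intro j
    rw [← mul_apply', ← mul_apply', ← D.q_conj j, inv_mul_cancel_right]
  refine ⟨?_, ?_⟩
  · rw [hc, hv.1]
  · rw [hc, hv.2, map_neg]

theorem b_cube_apply (v : V) : σ D.b (σ D.b (σ D.b v)) = v := by
  rw [← mul_apply', ← mul_apply', ← pow_two, ← pow_succ, D.b3, one_apply']

theorem fin3_cases (i j : Fin 3) : j = i ∨ j = i + 1 ∨ j = i + 2 := by
  revert i j; decide

/-- A fixed vector of `b` in two adjacent weight spaces is zero. -/
theorem pair_eq_zero {i : Fin 3} {x y : V} (hx : x ∈ D.N i) (hy : y ∈ D.N (i + 1))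
    (h : σ D.b (x + y) = x + y) : x = 0 ∧ y = 0 := by
  have hx1 := D.b_N hx
  have hy1 := D.b_N hy
  rw [f11] at hy1
  rw [map_add] at h
  have h1 : σ (D.q i) (σ D.b x) = -σ D.b x := by
    have := D.N_third hx1; rwa [f12] at this
  have h2 : σ (D.q i) (σ D.b y) = -σ D.b y := by
    have := (D.mem_N.mp hy1).2; rwa [f21] at this
  have h3 : σ (D.q i) y = -y := by
    have := D.N_third hy; rwa [f12] at this
  have hq := congrArg (σ (D.q i)) h
  rw [map_add, map_add, (D.mem_N.mp hx).1, h1, h2, h3, ← neg_add, h] at hq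
  have hx0 : x = 0 := by
    refine eq_zero_of_neg_eq ?_
    calc -x = -(x + y) + y := by abel
      _ = (x + -y) + y := by rw [hq]
      _ = x := by abel
  subst hx0
  refine ⟨rfl, eq_zero_of_neg_eq ?_⟩
  rw [map_zero, zero_add, zero_add] at h
  have h4 : σ (D.q (i + 1)) (σ D.b y) = -σ D.b y := by
    have := D.N_third hy1; rwa [f22] at this
  rw [h, (D.mem_N.mp hy).1] at h4
  exact h4.symm

theorem exists_N_ne_bot : ∃ j, D.N j ≠ ⊥ := by
  by_contra hall
  push Not at hall
  refine D.q_ne 0 (D.inj ?_)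
  rw [map_one]
  ext v
  have hw : σ (D.q 0) (v - σ (D.q 0) v) = -(v - σ (D.q 0) v) := by
    rw [map_sub, D.apply_sq, neg_sub]
  set w := v - σ (D.q 0) v
  have hw' : σ (D.q 0) (σ (D.q 1) w) = -σ (D.q 1) w := by rw [D.apply_comm, hw, map_neg]
  have hA : w + σ (D.q 1) w ∈ D.N 1 := by
    have hfix : σ (D.q 1) (w + σ (D.q 1) w) = w + σ (D.q 1) w := by
      rw [map_add, D.apply_sq]; abel
    refine D.mem_N.mpr ⟨hfix, ?_⟩
    have : D.q (1 + 1) = D.q 0 * D.q 1 := (D.q_mul 0).symm
    rw [this, mul_apply', hfix, map_add, hw, hw']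
    abel
  have hB : w - σ (D.q 1) w ∈ D.N 2 := by
    have hneg : σ (D.q 1) (w - σ (D.q 1) w) = -(w - σ (D.q 1) w) := by
      rw [map_sub, D.apply_sq]; abel
    refine D.mem_N.mpr ⟨?_, ?_⟩
    · have : D.q 2 = D.q 0 * D.q 1 := (D.q_mul 0).symm
      rw [this, mul_apply', hneg, map_neg, map_sub, hw, hw']
      abel
    · change σ (D.q 0) _ = _
      rw [map_sub, hw, hw']
      abel
  rw [hall 1, Submodule.mem_bot] at hA
  rw [hall 2, Submodule.mem_bot] at hB
  have h0 : w = 0 := by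
    refine eq_zero_of_neg_eq (neg_eq_of_add_eq_zero_left ?_)
    rw [show w + w = (w + σ (D.q 1) w) + (w - σ (D.q 1) w) by abel, hA, hB, add_zero]
  simpa using (sub_eq_zero.mp h0).symm

/-- The restriction of `σ b - 1` to a pair of adjacent weight spaces. -/
noncomputable def pairMap (i : Fin 3) : (D.N i × D.N (i + 1)) →ₗ[ZMod 3] V :=
  (σ D.b - 1).comp ((D.N i).subtype.coprod (D.N (i + 1)).subtype)

theorem pairMap_apply (i : Fin 3) (x : D.N i) (y : D.N (i + 1)) :
    D.pairMap i (x, y) = σ D.b ((x : V) + y) - ((x : V) + y) := rfl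

theorem pairMap_injective (i : Fin 3) : Function.Injective (D.pairMap i) := by
  rw [injective_iff_map_eq_zero]
  rintro ⟨⟨x, hx⟩, ⟨y, hy⟩⟩ h
  rw [pairMap_apply, sub_eq_zero] at h
  obtain ⟨rfl, rfl⟩ := D.pair_eq_zero hx hy h
  rfl

theorem range_pairMap_le (i : Fin 3) :
    LinearMap.range (D.pairMap i) ≤ LinearMap.range (σ D.b - 1) :=
  LinearMap.range_comp_le_range _ _

theorem finrank_pair_le (i : Fin 3) :
    finrank (ZMod 3) (D.N i) + finrank (ZMod 3) (D.N (i + 1)) ≤ 2 := by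
  rw [← Module.finrank_prod, ← LinearMap.finrank_range_of_inj (D.pairMap_injective i)]
  exact (Submodule.finrank_mono (D.range_pairMap_le i)).trans D.rank

theorem finrank_N_succ (i : Fin 3) :
    finrank (ZMod 3) (D.N i) ≤ finrank (ZMod 3) (D.N (i + 1)) := by
  refine LinearMap.finrank_le_finrank_of_injective
    (f := (σ D.b).restrict (fun v hv => D.b_N (i := i) hv)) ?_
  intro x y h
  refine Subtype.ext ?_
  have := congrArg (fun z : D.N (i + 1) => σ D.b (σ D.b (z : V))) h
  simpa [D.b_cube_apply] using this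

theorem finrank_N (i : Fin 3) : finrank (ZMod 3) (D.N i) = 1 := by
  have h2 := D.finrank_pair_le i
  have hs := D.finrank_N_succ i
  obtain ⟨j, hj⟩ := D.exists_N_ne_bot
  have hpos : 0 < finrank (ZMod 3) (D.N j) :=
    Nat.pos_of_ne_zero fun e => hj (Submodule.finrank_eq_zero.mp e)
  have a0 := D.finrank_N_succ 0
  have a1 := D.finrank_N_succ 1
  have a2 := D.finrank_N_succ 2
  change finrank (ZMod 3) (D.N 0) ≤ finrank (ZMod 3) (D.N 1) at a0
  change finrank (ZMod 3) (D.N 1) ≤ finrank (ZMod 3) (D.N 2) at a1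
  change finrank (ZMod 3) (D.N 2) ≤ finrank (ZMod 3) (D.N 0) at a2
  have hall : ∀ k : Fin 3, finrank (ZMod 3) (D.N k) = finrank (ZMod 3) (D.N 0) := by
    intro k
    fin_cases k
    · rfl
    · change finrank (ZMod 3) (D.N 1) = _; omega
    · change finrank (ZMod 3) (D.N 2) = _; omega
  have e1 := hall i
  have e2 := hall (i + 1)
  have e3 := hall j
  omega

theorem exists_gen (i : Fin 3) : ∃ v ∈ D.N i, v ≠ 0 :=
  Submodule.exists_mem_ne_zero_of_ne_bot fun e => by
    have h := D.finrank_N i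
    rw [e, finrank_bot] at h
    omega

theorem disjoint_succ (i : Fin 3) : Disjoint (D.N i) (D.N (i + 1)) := by
  rw [Submodule.disjoint_def]
  intro v h1 h2
  refine eq_zero_of_neg_eq ?_
  exact (D.mem_N.mp h1).2.symm.trans (D.mem_N.mp h2).1

theorem range_b_le' (i : Fin 3) :
    LinearMap.range (σ D.b - 1) ≤ D.N i ⊔ D.N (i + 1) ⊔ D.N (i + 2) := by
  have heq : LinearMap.range (D.pairMap i) = LinearMap.range (σ D.b - 1) := by
    refine Submodule.eq_of_le_of_finrank_le (D.range_pairMap_le i) ?_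
    rw [LinearMap.finrank_range_of_inj (D.pairMap_injective i), Module.finrank_prod, D.finrank_N,
      D.finrank_N]
    exact D.rank
  rw [← heq]
  rintro z ⟨⟨⟨x, hx⟩, ⟨y, hy⟩⟩, rfl⟩
  have hbx : σ D.b x ∈ D.N (i + 1) := D.b_N hx
  have hby : σ D.b y ∈ D.N (i + 2) := by rw [← f11 i]; exact D.b_N hy
  rw [pairMap_apply, map_add, add_sub_add_comm]
  refine add_mem (sub_mem ?_ ?_) (sub_mem ?_ ?_)
  · exact Submodule.mem_sup_left (Submodule.mem_sup_right hbx)
  · exact Submodule.mem_sup_left (Submodule.mem_sup_left hx)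
  · exact Submodule.mem_sup_right hby
  · exact Submodule.mem_sup_left (Submodule.mem_sup_right hy)

theorem range_b_le : LinearMap.range (σ D.b - 1) ≤ D.N 0 ⊔ D.N 1 ⊔ D.N 2 := by
  have h := D.range_b_le' 0
  rw [show (0 : Fin 3) + 1 = 1 from by decide, show (0 : Fin 3) + 2 = 2 from by decide] at h
  exact h

theorem decomp (i : Fin 3) {w : V} (hw : σ (D.q i) w = -w) :
    w + σ (D.q (i + 1)) w ∈ D.N (i + 1) ∧ w - σ (D.q (i + 1)) w ∈ D.N (i + 2) := by
  have hw' : σ (D.q i) (σ (D.q (i + 1)) w) = -σ (D.q (i + 1)) w := by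
    rw [D.apply_comm, hw, map_neg]
  have h11 : i + 1 + 1 = i + 2 := f11 i
  have h21 : i + 2 + 1 = i := f21 i
  constructor
  · have hfix : σ (D.q (i + 1)) (w + σ (D.q (i + 1)) w) = w + σ (D.q (i + 1)) w := by
      rw [map_add, D.apply_sq]; abel
    refine D.mem_N.mpr ⟨hfix, ?_⟩
    rw [h11, ← D.q_mul i, mul_apply', hfix, map_add, hw, hw']
    abel
  · have hneg : σ (D.q (i + 1)) (w - σ (D.q (i + 1)) w) = -(w - σ (D.q (i + 1)) w) := by
      rw [map_sub, D.apply_sq]; abel
    refine D.mem_N.mpr ⟨?_, ?_⟩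
    · rw [← D.q_mul i, mul_apply', hneg, map_neg, map_sub, hw, hw']
      abel
    · rw [h21, map_sub, hw, hw']
      abel

theorem neg_mem_sup (i : Fin 3) {w : V} (hw : σ (D.q i) w = -w) :
    w ∈ D.N (i + 1) ⊔ D.N (i + 2) := by
  obtain ⟨h1, h2⟩ := D.decomp i hw
  have : w = -((w + σ (D.q (i + 1)) w) + (w - σ (D.q (i + 1)) w)) := by
    rw [show (w + σ (D.q (i + 1)) w) + (w - σ (D.q (i + 1)) w) = w + w by abel]
    exact eq_neg_of_add_eq_zero_left (by rw [← add_assoc]; exact add3 w)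
  rw [this]
  exact neg_mem (add_mem (Submodule.mem_sup_left h1) (Submodule.mem_sup_right h2))

/-- A vector in the span of the weight spaces fixed by the four group is zero. -/
theorem eq_zero_of_fixed {v : V} (hv : v ∈ D.N 0 ⊔ D.N 1 ⊔ D.N 2)
    (hfix : ∀ i, σ (D.q i) v = v) : v = 0 := by
  obtain ⟨u, hu, n2, h2, rfl⟩ := Submodule.mem_sup.mp hv
  obtain ⟨n0, h0, n1, h1, rfl⟩ := Submodule.mem_sup.mp hu
  have e00 : σ (D.q 0) n0 = n0 := (D.mem_N.mp h0).1
  have e10 : σ (D.q 1) n0 = -n0 := (D.mem_N.mp h0).2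
  have e20 : σ (D.q 2) n0 = -n0 := D.N_third h0
  have e11 : σ (D.q 1) n1 = n1 := (D.mem_N.mp h1).1
  have e21 : σ (D.q 2) n1 = -n1 := (D.mem_N.mp h1).2
  have e01 : σ (D.q 0) n1 = -n1 := D.N_third h1
  have e22 : σ (D.q 2) n2 = n2 := (D.mem_N.mp h2).1
  have e02 : σ (D.q 0) n2 = -n2 := (D.mem_N.mp h2).2
  have e12 : σ (D.q 1) n2 = -n2 := D.N_third h2
  have g0 := hfix 0
  have g1 := hfix 1
  have g2 := hfix 2
  rw [map_add, map_add, e00, e01, e02] at g0
  rw [map_add, map_add, e10, e11, e12] at g1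
  rw [map_add, map_add, e20, e21, e22] at g2
  refine eq_zero_of_neg_eq ?_
  calc -(n0 + n1 + n2) = (n0 + -n1 + -n2) + (-n0 + n1 + -n2) + (-n0 + -n1 + n2) := by abel
    _ = (n0 + n1 + n2) + (n0 + n1 + n2) + (n0 + n1 + n2) := by rw [g0, g1, g2]
    _ = 0 := add3 _
    _ = n0 + n1 + n2 := ?_
  symm
  have h12 : n1 + n2 = 0 := by
    refine eq_zero_of_neg_eq ?_
    calc -(n1 + n2) = (n0 + -n1 + -n2) - n0 := by abel
      _ = (n0 + n1 + n2) - n0 := by rw [g0]
      _ = n1 + n2 := by abel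
  have h02 : n0 + n2 = 0 := by
    refine eq_zero_of_neg_eq ?_
    calc -(n0 + n2) = (-n0 + n1 + -n2) - n1 := by abel
      _ = (n0 + n1 + n2) - n1 := by rw [g1]
      _ = n0 + n2 := by abel
  have h01 : n0 + n1 = 0 := by
    refine eq_zero_of_neg_eq ?_
    calc -(n0 + n1) = (-n0 + -n1 + n2) - n2 := by abel
      _ = (n0 + n1 + n2) - n2 := by rw [g2]
      _ = n0 + n1 := by abel
  refine eq_zero_of_neg_eq (neg_eq_of_add_eq_zero_left ?_)
  calc (n0 + n1 + n2) + (n0 + n1 + n2) = (n0 + n1) + (n1 + n2) + (n0 + n2) := by abel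
    _ = 0 := by rw [h01, h12, h02, add_zero, add_zero]

end QData

/-- An endomorphism of multiplicative order prime to 6 fixes each invariant subspace of dimension at
most two pointwise. -/
theorem fix_of_finrank_le_two {f : Module.End (ZMod 3) V} {k : ℕ} (hk : f ^ k = 1)
    (h2 : ¬ 2 ∣ k) (h3 : ¬ 3 ∣ k) {W : Submodule (ZMod 3) V}
    (hW : finrank (ZMod 3) W ≤ 2) (hinv : ∀ v ∈ W, f v ∈ W) {v : V} (hv : v ∈ W) : f v = v := by
  classical
  have key : ∀ n, n ≤ 2 → (∏ i : Fin n, (3 ^ n - 3 ^ (i : ℕ))) ∣ 48 := by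
    intro n hn
    interval_cases n <;> decide
  have hkpos : 0 < k := Nat.pos_of_ne_zero fun e => h2 (e ▸ dvd_zero 2)
  set g : Module.End (ZMod 3) W := f.restrict hinv with hg
  have hgk : g ^ k = 1 := by
    rw [hg, Module.End.pow_restrict]
    ext w
    simp [hk]
  let u : (Module.End (ZMod 3) W)ˣ := Units.ofPowEqOne g k hgk hkpos.ne'
  have hu : u ^ k = 1 := Units.pow_ofPowEqOne hgk hkpos.ne'
  set B := Module.finBasis (ZMod 3) W
  let e := Units.mapEquiv (LinearMap.toMatrixAlgEquiv B).toMulEquiv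
  have hcard : Nat.card (Module.End (ZMod 3) W)ˣ ∣ 48 := by
    rw [Nat.card_congr e.toEquiv]
    have := Matrix.card_GL_field (𝔽 := ZMod 3) (finrank (ZMod 3) W)
    rw [ZMod.card] at this
    change Nat.card (GL (Fin (finrank (ZMod 3) W)) (ZMod 3)) ∣ 48
    rw [this]
    exact key _ hW
  have ho : orderOf u = 1 := by
    have h48 : orderOf u ∣ 48 := (orderOf_dvd_natCard u).trans hcard
    have hcop : Nat.Coprime k 48 := by
      have : Nat.Coprime k (2 ^ 4 * 3) := Nat.Coprime.mul_right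
        (Nat.Coprime.pow_right _ ((Nat.prime_two.coprime_iff_not_dvd.mpr h2).symm))
        ((Nat.prime_three.coprime_iff_not_dvd.mpr h3).symm)
      simpa using this
    exact Nat.eq_one_of_dvd_coprimes hcop (orderOf_dvd_of_pow_eq_one hu) h48
  have hu1 : u = 1 := orderOf_eq_one_iff.mp ho
  have h1 : g = 1 := by
    have := congrArg Units.val hu1
    simpa [u] using this
  simpa [hg] using congrArg Subtype.val (LinearMap.congr_fun h1 ⟨v, hv⟩)

end Cfsg.Agent.CubicModule
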