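/-
The four group centralizes every abelian subgroup of order prime to six that it normalizes; the
irreducible setting has no such normal subgroup, and its cyclic normal subgroups are scalar.
-/
import Cfsg.Agent.CubicModule.Basic
import Mathlib.GroupTheory.Commutator.Basic
import Mathlib.GroupTheory.Abelianization.Defs
import Mathlib.GroupTheory.Solvable
import Mathlib.GroupTheory.SpecificGroups.Cyclic

set_option autoImplicit false
set_option linter.unusedSectionVars false

namespace Cfsg.Agent.CubicModule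

open Module

variable {G : Type*} [Group G] [Finite G] {V : Type*} [AddCommGroup V] [Module (ZMod 3) V] [Finite V]
variable {σ : Representation (ZMod 3) G V}

/-- If an element of odd order fixes `v` after squaring it fixes `v`. -/
theorem fix_of_sq_fix {a : G} {k : ℕ} (hk : a ^ k = 1) (h2 : ¬ 2 ∣ k) {v : V}
    (h : σ a (σ a v) = v) : σ a v = v := by
  have h' : ∀ m : ℕ, σ (a ^ (2 * m)) v = v := by
    intro m
    induction m with
    | zero => simp
    | succ m ih =>
      rw [show a ^ (2 * (m + 1)) = a ^ (2 * m) * (a * a) by rw [← pow_two, ← pow_add]; ring_nf,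
        mul_apply', mul_apply', h, ih]
  obtain ⟨m, hm⟩ : Odd k := Nat.odd_iff.mpr (Nat.two_dvd_ne_zero.mp h2)
  have := congrArg (fun g => σ g v) hk
  simp only [one_apply', hm, pow_succ', mul_apply', h'] at this
  exact this

/-- A commutator vector fixed by an element of order prime to three is zero. -/
theorem fix_range_eq_zero {a : G} {k : ℕ} (hk : a ^ k = 1) (h3 : ¬ 3 ∣ k) {v : V}
    (hv : v ∈ LinearMap.range (σ a - 1)) (hf : σ a v = v) : v = 0 := by
  obtain ⟨w, rfl⟩ := hv
  set d := (σ a - 1) w with hd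
  have haw : σ a w = w + d := by rw [hd, LinearMap.sub_apply, Module.End.one_apply]; abel
  have h' : ∀ m : ℕ, σ (a ^ m) w = w + (m : ZMod 3) • d := by
    intro m
    induction m with
    | zero => simp
    | succ m ih =>
      rw [pow_succ', mul_apply', ih, map_add, map_smul, hf, haw, Nat.cast_succ, add_smul, one_smul]
      abel
  have h := h' k
  rw [hk, one_apply'] at h
  have hz : (k : ZMod 3) • d = 0 := by simpa using h.symm
  rcases smul_eq_zero.mp hz with h0 | h0
  · exact absurd ((ZMod.natCast_eq_zero_iff k 3).mp h0) h3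
  · exact h0

theorem exists_third : ∀ i j : Fin 3, i ≠ j →
    ∃ l : Fin 3, (l = i + 1 ∨ l = i + 2) ∧ (l = j + 1 ∨ l = j + 2) := by decide

theorem succ_ne : ∀ i : Fin 3, (i + 1 : Fin 3) ≠ i := by decide
theorem succ2_ne : ∀ i : Fin 3, (i + 2 : Fin 3) ≠ i := by decide
theorem sign_cases : ∀ c : ZMod 3, c ≠ 0 → c = 1 ∨ c = -1 := by decide

namespace QData

variable (D : QData σ)

/-- The two-dimensional commutator space of the involution `q i`. -/
def W (i : Fin 3) : Submodule (ZMod 3) V := D.N (i + 1) ⊔ D.N (i + 2)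

theorem finrank_W_le (i : Fin 3) : finrank (ZMod 3) (D.W i) ≤ 2 := by
  have h := Submodule.finrank_add_le_finrank_add_finrank (D.N (i + 1)) (D.N (i + 2))
  rw [D.finrank_N, D.finrank_N] at h
  exact h

theorem mem_W {i : Fin 3} {w : V} : w ∈ D.W i ↔ σ (D.q i) w = -w := by
  refine ⟨fun h => ?_, D.neg_mem_sup i⟩
  obtain ⟨x, hx, y, hy, rfl⟩ := Submodule.mem_sup.mp h
  have h1 : σ (D.q i) x = -x := by
    have := D.N_third hx; rwa [f12] at this
  have h2 : σ (D.q i) y = -y := by
    have := (D.mem_N.mp hy).2; rwa [f21] at this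
  rw [map_add, h1, h2, neg_add]

/-- An element of order prime to six that commutes with one involution and is inverted by another
is trivial. -/
theorem rigid {i j : Fin 3} (hij : i ≠ j) {a : G} {k : ℕ} (hk : a ^ k = 1) (h2 : ¬ 2 ∣ k)
    (h3 : ¬ 3 ∣ k) (hc : D.q i * a = a * D.q i) (hinv : D.q j * a * D.q j = a⁻¹) : a = 1 := by
  have hfixW : ∀ v ∈ D.W i, σ a v = v := by
    intro v hv
    refine fix_of_finrank_le_two (f := σ a) (k := k) (by rw [← map_pow, hk, map_one]) h2 h3
      (D.finrank_W_le i) (fun w hw => ?_) hv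
    rw [D.mem_W] at hw ⊢
    rw [← mul_apply', hc, mul_apply', hw, map_neg]
  obtain ⟨l, hli, hlj⟩ := exists_third i j hij
  obtain ⟨v₀, hv₀, hv₀0⟩ := D.exists_gen l
  have hv₀i : v₀ ∈ D.W i := by
    rcases hli with rfl | rfl
    · exact Submodule.mem_sup_left hv₀
    · exact Submodule.mem_sup_right hv₀
  have hv₀j : v₀ ∈ D.W j := by
    rcases hlj with rfl | rfl
    · exact Submodule.mem_sup_left hv₀
    · exact Submodule.mem_sup_right hv₀
  set M := LinearMap.range (σ a - 1) with hM
  have hqa : ∀ v, σ (D.q j) (σ a v) = σ a⁻¹ (σ (D.q j) v) := by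
    intro v
    rw [← mul_apply', ← mul_apply', ← hinv, mul_assoc (D.q j * a), D.q_sq, mul_one]
  have haM : ∀ v ∈ M, σ a v ∈ M := by
    rintro v ⟨w, rfl⟩
    exact ⟨σ a w, by simp [LinearMap.sub_apply, map_sub]⟩
  have hqM : ∀ v ∈ M, σ (D.q j) v ∈ M := by
    rintro v ⟨w, rfl⟩
    rw [LinearMap.sub_apply, Module.End.one_apply, map_sub, hqa]
    refine ⟨-σ a⁻¹ (σ (D.q j) w), ?_⟩
    rw [LinearMap.sub_apply, Module.End.one_apply, map_neg, ← mul_apply', mul_inv_cancel,
      one_apply']
    abel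
  set P := M ⊓ D.W j with hP
  have hPlt : finrank (ZMod 3) P ≤ 1 := by
    have hlt : P < D.W j := lt_of_le_of_ne inf_le_right fun e => by
      have hm : v₀ ∈ P := e ▸ hv₀j
      exact hv₀0 (fix_range_eq_zero hk h3 hm.1 (hfixW v₀ hv₀i))
    have h := Submodule.finrank_lt_finrank_of_lt hlt
    have h' := D.finrank_W_le j
    omega
  set C := M ⊓ LinearMap.ker (σ (D.q j) - 1) with hC
  have hmap : ∀ v ∈ C, σ a v - σ (D.q j) (σ a v) ∈ P := by
    intro v hv
    refine ⟨sub_mem (haM v hv.1) (hqM _ (haM v hv.1)), (D.mem_W).mpr ?_⟩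
    rw [map_sub, D.apply_sq]; abel
  let L : C →ₗ[ZMod 3] P :=
    LinearMap.codRestrict P (((1 - σ (D.q j)).comp (σ a)).comp C.subtype)
      (fun v => hmap v v.2)
  have hL : Function.Injective L := by
    rw [injective_iff_map_eq_zero]
    rintro ⟨v, hvM, hvq⟩ h
    have h' : σ a v - σ (D.q j) (σ a v) = 0 := congrArg Subtype.val h
    have hvq' : σ (D.q j) v = v := by
      have := LinearMap.mem_ker.mp hvq
      rwa [LinearMap.sub_apply, Module.End.one_apply, sub_eq_zero] at this
    rw [hqa, hvq', sub_eq_zero] at h'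
    have h2v : σ a (σ a v) = v := by rw [h', ← mul_apply', mul_inv_cancel, one_apply']
    exact Subtype.ext (fix_range_eq_zero hk h3 hvM (fix_of_sq_fix hk h2 h2v))
  have hCle : finrank (ZMod 3) C ≤ 1 :=
    (LinearMap.finrank_le_finrank_of_injective hL).trans hPlt
  have hMle : M ≤ C ⊔ P := by
    intro v hv
    have e : v = -(v + σ (D.q j) v) + -(v - σ (D.q j) v) := by
      rw [show -(v + σ (D.q j) v) + -(v - σ (D.q j) v) = -(v + v) by abel]
      exact eq_neg_of_add_eq_zero_left (by rw [← add_assoc]; exact add3 v)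
    rw [e]
    refine add_mem (Submodule.mem_sup_left (neg_mem ⟨add_mem hv (hqM v hv), ?_⟩))
      (Submodule.mem_sup_right (neg_mem ⟨sub_mem hv (hqM v hv), (D.mem_W).mpr ?_⟩))
    · change (σ (D.q j) - 1) (v + σ (D.q j) v) = 0
      rw [LinearMap.sub_apply, Module.End.one_apply, map_add, D.apply_sq]
      abel
    · rw [map_sub, D.apply_sq]; abel
  have hM2 : finrank (ZMod 3) M ≤ 2 := by
    refine (Submodule.finrank_mono hMle).trans ?_
    have := Submodule.finrank_add_le_finrank_add_finrank C P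
    omega
  refine D.inj ?_
  rw [map_one]
  ext v
  have hmem : (σ a - 1) v ∈ M := ⟨v, rfl⟩
  have h0 := fix_range_eq_zero hk h3 hmem
    (fix_of_finrank_le_two (f := σ a) (by rw [← map_pow, hk, map_one]) h2 h3 hM2 haM hmem)
  simpa [sub_eq_zero] using h0

theorem q_comm_of_abelian {A : Subgroup G} (hA : ∀ x ∈ A, ∀ y ∈ A, x * y = y * x)
    (h2 : ¬ 2 ∣ Nat.card A) (h3 : ¬ 3 ∣ Nat.card A)
    (hn : ∀ i, ∀ a ∈ A, D.q i * a * D.q i ∈ A) {a : G} (ha : a ∈ A) (i : Fin 3) :
    D.q i * a = a * D.q i := by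
  have hpow : ∀ x ∈ A, x ^ Nat.card A = 1 := fun x hx => by
    exact congrArg Subtype.val (pow_card_eq_one' (x := (⟨x, hx⟩ : A)))
  set c := fun l x => D.q l * x * D.q l with hc
  have hcc : ∀ l x, c l (c l x) = x := by
    intro l x
    simp only [hc]
    rw [show D.q l * (D.q l * x * D.q l) * D.q l = (D.q l * D.q l) * x * (D.q l * D.q l) by group,
      D.q_sq, one_mul, mul_one]
  have hcm : ∀ l x y, c l (x * y) = c l x * c l y := by
    intro l x y
    simp only [hc]
    rw [show D.q l * x * D.q l * (D.q l * y * D.q l) = D.q l * x * (D.q l * D.q l) * y * D.q l by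
      group, D.q_sq, mul_one]
    group
  have hci : ∀ l x, c l x⁻¹ = (c l x)⁻¹ := fun l x => by
    refine eq_inv_of_mul_eq_one_left ?_
    rw [← hcm, inv_mul_cancel]
    simp [hc, D.q_sq]
  have hcomm : ∀ l m x, c l (c m x) = c m (c l x) := by
    intro l m x
    simp only [hc]
    rw [show D.q l * (D.q m * x * D.q m) * D.q l = (D.q l * D.q m) * x * (D.q m * D.q l) by group,
      show D.q m * (D.q l * x * D.q l) * D.q m = (D.q m * D.q l) * x * (D.q l * D.q m) by group,
      D.q_comm m l]
  set y := a * (c i a)⁻¹ with hy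
  have hyA : y ∈ A := A.mul_mem ha (A.inv_mem (hn i a ha))
  have hyi : c i y = y⁻¹ := by
    rw [hy, hcm, hci, hcc, mul_inv_rev, inv_inv]
  set z := y * c (i + 1) y with hz
  have hzA : z ∈ A := A.mul_mem hyA (hn _ y hyA)
  have hij : (i + 1 : Fin 3) ≠ i := succ_ne i
  have hz1 : z = 1 := by
    refine D.rigid hij (hpow z hzA) h2 h3 ?_ ?_
    · have : c (i + 1) z = z := by
        rw [hz, hcm, hcc]; exact hA _ (hn _ y hyA) _ hyA
      calc D.q (i + 1) * z = c (i + 1) z * D.q (i + 1) := by
            simp only [hc]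
            rw [mul_assoc (D.q (i + 1) * z), D.q_sq, mul_one]
        _ = z * D.q (i + 1) := by rw [this]
    · change c i z = z⁻¹
      rw [hz, hcm, hcomm, hyi, hci]
      exact ((mul_inv_rev _ _).trans (hA _ (A.inv_mem (hn _ y hyA)) _ (A.inv_mem hyA))).symm
  have hy1 : c (i + 1) y = y⁻¹ := eq_inv_of_mul_eq_one_right (hz ▸ hz1)
  have hy2 : y = 1 := by
    have hij2 : (i + 2 : Fin 3) ≠ i := succ2_ne i
    refine D.rigid hij2 (hpow y hyA) h2 h3 ?_ hyi
    have : c (i + 2) y = y := by
      have e : c (i + 2) y = c i (c (i + 1) y) := by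
        simp only [hc, ← D.q_mul i]
        rw [show D.q i * (D.q (i + 1) * y * D.q (i + 1)) * D.q i =
          (D.q i * D.q (i + 1)) * y * (D.q (i + 1) * D.q i) by group, D.q_comm (i + 1) i]
      rw [e, hy1, hci, hyi, inv_inv]
    calc D.q (i + 2) * y = c (i + 2) y * D.q (i + 2) := by
          simp only [hc]
          rw [mul_assoc (D.q (i + 2) * y), D.q_sq, mul_one]
      _ = y * D.q (i + 2) := by rw [this]
  have hfin : c i a = a := by
    rw [hy] at hy2
    exact (mul_inv_eq_one.mp hy2).symm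
  calc D.q i * a = c i a * D.q i := by
        simp only [hc]
        rw [mul_assoc (D.q i * a), D.q_sq, mul_one]
    _ = a * D.q i := by rw [hfin]

end QData

/-- The irreducible setting: `G = R⟨b⟩` with `R` a solvable normal subgroup of order prime to three
and `R = [R,b]` containing the four group. -/
structure Setup (σ : Representation (ZMod 3) G V) extends QData σ where
  R : Subgroup G
  normal : R.Normal
  cop : (Nat.card R).Coprime 3
  solv : Group.IsSolvable R
  gen : R ⊔ Subgroup.zpowers b = ⊤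
  comm : R = ⁅R, Subgroup.zpowers b⁆
  q_mem : ∀ i, q i ∈ R
  irr : ∀ U : Submodule (ZMod 3) V, (∀ g, ∀ v ∈ U, σ g v ∈ U) → U = ⊥ ∨ U = ⊤

namespace Setup

variable (S : Setup σ)
include S

theorem not_three_dvd {A : Subgroup G} (hA : A ≤ S.R) : ¬ 3 ∣ Nat.card A := fun h =>
  (Nat.prime_three.coprime_iff_not_dvd.mp S.cop.symm) (h.trans (Subgroup.card_dvd_of_le hA))

theorem R_le_commutator : S.R ≤ commutator G := by
  rw [S.comm]
  exact Subgroup.commutator_mono le_top le_top

/-- Elements of `R` centralize every normal cyclic subgroup. -/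
theorem R_centralizes_cyclic {A : Subgroup G} [A.Normal] [IsCyclic A] {r : G} (hr : r ∈ S.R)
    {a : G} (ha : a ∈ A) : r * a = a * r := by
  let f : G →* MulAut A := MulAut.conjNormal
  have hcomm : ∀ x y : MulAut A, x * y = y * x := by
    intro x y
    apply (IsCyclic.mulAutMulEquiv A).injective
    rw [map_mul, map_mul, mul_comm]
  have hk : commutator G ≤ f.ker := by
    rw [commutator_eq_closure, Subgroup.closure_le]
    rintro _ ⟨x, y, rfl⟩
    rw [SetLike.mem_coe, MonoidHom.mem_ker, map_commutatorElement, commutatorElement_eq_one_iff_mul_comm]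
    exact hcomm _ _
  have h1 : f r = 1 := hk (S.R_le_commutator hr)
  have h2 := congrArg Subtype.val (DFunLike.congr_fun h1 ⟨a, ha⟩)
  simp only [f, MulAut.conjNormal_apply, MulAut.one_apply] at h2
  exact mul_inv_eq_iff_eq_mul.mp h2

/-- The vectors fixed by a normal subgroup form zero or everything. -/
theorem fixed_eq_top {A : Subgroup G} [hA : A.Normal] {v : V} (hv0 : v ≠ 0)
    (hv : ∀ a ∈ A, σ a v = v) : A = ⊥ := by
  let U : Submodule (ZMod 3) V := ⨅ a ∈ A, LinearMap.ker (σ a - 1)
  have hmem : ∀ w, w ∈ U ↔ ∀ a ∈ A, σ a w = w := by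
    intro w
    simp [U, Submodule.mem_iInf, sub_eq_zero]
  have hinv : ∀ g, ∀ w ∈ U, σ g w ∈ U := by
    intro g w hw
    rw [hmem] at hw ⊢
    intro a ha
    have := hw (g⁻¹ * a * g) (hA.conj_mem' a ha g)
    calc σ a (σ g w) = σ g (σ (g⁻¹ * a * g) w) := by
          rw [← mul_apply', ← mul_apply']; group
      _ = σ g w := by rw [this]
  rcases S.irr U hinv with h | h
  · exact absurd ((Submodule.eq_bot_iff U).mp h v ((hmem v).mpr hv)) hv0
  · refine (Subgroup.eq_bot_iff_forall A).mpr fun a ha => S.inj ?_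
    rw [map_one]
    ext w
    exact (hmem w).mp (h ▸ Submodule.mem_top) a ha

/-- An element commuting with the four group acts as a sign on a weight line. -/
theorem line_sign {a : G} (hc : ∀ i, S.q i * a = a * S.q i) {v : V} (hv : v ∈ S.N 0) :
    σ a v = v ∨ σ a v = -v := by
  by_cases h0 : v = 0
  · simp [h0]
  have hav : σ a v ∈ S.N 0 := by
    rw [S.mem_N] at hv ⊢
    constructor
    · rw [← mul_apply', hc, mul_apply', hv.1]
    · rw [← mul_apply', hc, mul_apply', hv.2, map_neg]
  obtain ⟨c, hc'⟩ := exists_smul_eq_of_finrank_eq_one (S.finrank_N 0)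
    (x := (⟨v, hv⟩ : S.N 0)) (by simpa using h0) ⟨σ a v, hav⟩
  have hc'' : c • v = σ a v := congrArg Subtype.val hc'
  have hcne : c ≠ 0 := by
    rintro rfl
    rw [zero_smul] at hc''
    refine h0 ?_
    calc v = σ a⁻¹ (σ a v) := by rw [← mul_apply', inv_mul_cancel, one_apply']
      _ = 0 := by rw [← hc'', map_zero]
  rcases sign_cases c hcne with rfl | rfl
  · exact Or.inl (by simpa using hc''.symm)
  · exact Or.inr (by simpa using hc''.symm)

theorem abelian_odd_eq_bot {A : Subgroup G} [hAn : A.Normal] (hAR : A ≤ S.R)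
    (hA : ∀ x ∈ A, ∀ y ∈ A, x * y = y * x) (h2 : ¬ 2 ∣ Nat.card A) : A = ⊥ := by
  obtain ⟨v, hv, hv0⟩ := S.exists_gen 0
  refine S.fixed_eq_top hv0 fun a ha => ?_
  have hq : ∀ i, S.q i * a = a * S.q i := fun i => S.q_comm_of_abelian hA h2 (S.not_three_dvd hAR)
    (fun l x hx => by
      have := hAn.conj_mem x hx (S.q l)
      rwa [inv_eq_of_mul_eq_one_right (S.q_sq l)] at this) ha i
  have hk : a ^ Nat.card A = 1 := congrArg Subtype.val (pow_card_eq_one' (x := (⟨a, ha⟩ : A)))
  rcases S.line_sign hq hv with h | h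
  · exact h
  · exact fix_of_sq_fix hk h2 (by rw [h, map_neg, h, neg_neg])

theorem cyclic_scalar {A : Subgroup G} [hAn : A.Normal] (hAR : A ≤ S.R) [IsCyclic A]
    {a : G} (ha : a ∈ A) : σ a = 1 ∨ σ a = -1 := by
  obtain ⟨v, hv, hv0⟩ := S.exists_gen 0
  have hconj : ∀ g : G, ∃ m : ℤ, ∀ x ∈ A, g * x * g⁻¹ = x ^ m := by
    intro g
    obtain ⟨m, hm⟩ := MonoidHom.map_cyclic ((MulAut.conjNormal g : MulAut A).toMonoidHom)
    refine ⟨m, fun x hx => ?_⟩
    have := congrArg Subtype.val (hm ⟨x, hx⟩)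
    simpa using this
  have hsub : ∀ x ∈ A, (Subgroup.zpowers x).Normal := by
    intro x hx
    refine ⟨fun y hy g => ?_⟩
    obtain ⟨n, rfl⟩ := Subgroup.mem_zpowers_iff.mp hy
    obtain ⟨m, hm⟩ := hconj g
    rw [hm _ (A.zpow_mem hx n), ← zpow_mul]
    exact Subgroup.zpow_mem _ (Subgroup.mem_zpowers x) _
  have hcent : ∀ i, S.q i * a = a * S.q i := fun i => S.R_centralizes_cyclic (S.q_mem i) ha
  have hsq : a * a = 1 := by
    haveI := hsub _ (A.mul_mem ha ha)
    have h := S.fixed_eq_top (A := Subgroup.zpowers (a * a)) hv0 ?_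
    · exact (Subgroup.zpowers_eq_bot).mp h
    intro y hy
    have hfix : σ (a * a) v = v := by
      rcases S.line_sign hcent hv with h | h
      · rw [mul_apply', h, h]
      · rw [mul_apply', h, map_neg, h, neg_neg]
    obtain ⟨n, rfl⟩ := ((isOfFinOrder_of_finite (a * a)).mem_powers_iff_mem_zpowers).mpr hy
    clear hy
    simp only
    induction n with
    | zero => simp
    | succ n ih => rw [pow_succ, mul_apply', hfix, ih]
  by_cases ha1 : a = 1
  · exact Or.inl (by rw [ha1, map_one])
  have hcen : ∀ g : G, g * a = a * g := by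
    intro g
    obtain ⟨m, hm⟩ := hconj g
    have h := hm a ha
    have hsq' : a ^ (2 : ℤ) = 1 := by rw [zpow_two]; exact hsq
    rcases Int.even_or_odd m with ⟨n, hn⟩ | ⟨n, hn⟩
    · rw [hn, ← two_mul, zpow_mul, hsq', one_zpow] at h
      exact absurd (conj_eq_one_iff.mp h) ha1
    · rw [hn, zpow_add, zpow_mul, hsq', one_zpow, one_mul, zpow_one] at h
      exact mul_inv_eq_iff_eq_mul.mp h
  let U : Submodule (ZMod 3) V := LinearMap.ker (σ a + 1)
  have hU : ∀ w, w ∈ U ↔ σ a w = -w := fun w => by simp [U, add_eq_zero_iff_eq_neg]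
  rcases S.irr U (fun g w hw => by
    rw [hU] at hw ⊢
    rw [← mul_apply', ← hcen g, mul_apply', hw, map_neg]) with h | h
  · refine Or.inl ?_
    ext w
    have : w - σ a w ∈ U := by
      rw [hU, map_sub, ← mul_apply', hsq, one_apply', neg_sub]
    rw [h, Submodule.mem_bot, sub_eq_zero] at this
    exact this.symm
  · refine Or.inr ?_
    ext w
    exact (hU w).mp (h ▸ Submodule.mem_top)

end Setup

end Cfsg.Agent.CubicModule
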