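/-
Weight spaces of a normal elementary abelian two-subgroup in the cubic setting: the element of
order three permutes three lines, and the group is monomial with all lines of dimension one.
-/
import Cfsg.Agent.CubicModule.Rigid
import Mathlib.GroupTheory.Perm.Cycle.Type
import Mathlib.GroupTheory.Perm.Sign
import Mathlib.GroupTheory.GroupAction.Jordan
import Mathlib.GroupTheory.SpecificGroups.Alternating
import Mathlib.Tactic.LinearCombination

set_option autoImplicit false
set_option linter.unusedSectionVars false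

namespace Cfsg.Agent.CubicModule

open Module Equiv
open scoped Pointwise

theorem signs_pm : ∀ c : ZMod 3, c * c = 1 → c = 1 ∨ c = -1 := by decide
theorem sq_of_ne : ∀ c : ZMod 3, c ≠ 0 → c * c = 1 := by decide

variable {G : Type*} [Group G] [Finite G] {V : Type*} [AddCommGroup V] [Module (ZMod 3) V] [Finite V]
variable {σ : Representation (ZMod 3) G V}

/-- A normal elementary abelian two-subgroup that does not act by scalars. -/
structure WData (S : Setup σ) where
  A : Subgroup G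
  normal : A.Normal
  le : A ≤ S.R
  sq : ∀ a ∈ A, a * a = 1
  a₀ : G
  a₀_mem : a₀ ∈ A
  a₀_one : σ a₀ ≠ 1
  a₀_neg : σ a₀ ≠ -1

namespace WData

variable {S : Setup σ} (W : WData S)

theorem comm {a a' : G} (ha : a ∈ W.A) (ha' : a' ∈ W.A) : a * a' = a' * a := by
  have h1 : a⁻¹ = a := inv_eq_of_mul_eq_one_right (W.sq a ha)
  have h2 : a'⁻¹ = a' := inv_eq_of_mul_eq_one_right (W.sq a' ha')
  have h3 : (a * a')⁻¹ = a * a' := inv_eq_of_mul_eq_one_right (W.sq _ (W.A.mul_mem ha ha'))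
  calc a * a' = (a * a')⁻¹ := h3.symm
    _ = a'⁻¹ * a⁻¹ := mul_inv_rev _ _
    _ = a' * a := by rw [h1, h2]

/-- The weight space of `χ`. -/
def wsp (χ : W.A → ZMod 3) : Submodule (ZMod 3) V :=
  ⨅ a : W.A, LinearMap.ker (σ (a : G) - χ a • (1 : Module.End (ZMod 3) V))

theorem mem_wsp {χ : W.A → ZMod 3} {v : V} :
    v ∈ W.wsp χ ↔ ∀ a : W.A, σ (a : G) v = χ a • v := by
  simp [wsp, Submodule.mem_iInf, sub_eq_zero]

/-- The weights. -/
def Wt : Type _ := {χ : W.A → ZMod 3 // W.wsp χ ≠ ⊥}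

instance : Finite W.Wt := Subtype.finite
noncomputable instance : Fintype W.Wt := Fintype.ofFinite _
noncomputable instance : DecidableEq W.Wt := Classical.decEq _

theorem exists_vec (χ : W.Wt) : ∃ v ∈ W.wsp χ.1, v ≠ 0 :=
  Submodule.exists_mem_ne_zero_of_ne_bot χ.2

/-- A chosen vector of the weight space. -/
noncomputable def vec (χ : W.Wt) : V := (W.exists_vec χ).choose

theorem vec_mem (χ : W.Wt) : W.vec χ ∈ W.wsp χ.1 := (W.exists_vec χ).choose_spec.1
theorem vec_ne (χ : W.Wt) : W.vec χ ≠ 0 := (W.exists_vec χ).choose_spec.2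

theorem wt_mul (χ : W.Wt) (a a' : W.A) : χ.1 (a * a') = χ.1 a * χ.1 a' := by
  have h := (W.mem_wsp.mp (W.vec_mem χ)) (a * a')
  rw [Subgroup.coe_mul, mul_apply', W.mem_wsp.mp (W.vec_mem χ) a', map_smul,
    W.mem_wsp.mp (W.vec_mem χ) a, smul_smul] at h
  exact ((smul_left_injective (ZMod 3) (W.vec_ne χ) h).trans rfl).symm.trans (mul_comm _ _)

theorem wt_one (χ : W.Wt) : χ.1 1 = 1 := by
  have h := (W.mem_wsp.mp (W.vec_mem χ)) 1
  rw [OneMemClass.coe_one, one_apply'] at h
  exact smul_left_injective (ZMod 3) (W.vec_ne χ) (by simpa using h.symm)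

theorem wt_sq (χ : W.Wt) (a : W.A) : χ.1 a * χ.1 a = 1 := by
  rw [← W.wt_mul, show a * a = 1 from Subtype.ext (W.sq a a.2), W.wt_one]

theorem sum_orth {χ ψ : W.Wt} [Fintype W.A] (h : χ ≠ ψ) : ∑ a : W.A, χ.1 a * ψ.1 a = 0 := by
  obtain ⟨a₁, ha⟩ : ∃ a₁, χ.1 a₁ ≠ ψ.1 a₁ := Function.ne_iff.mp fun e => h (Subtype.ext e)
  have hs : χ.1 a₁ * ψ.1 a₁ = -1 := by
    rcases signs_pm _ (W.wt_sq χ a₁) with h1 | h1 <;> rcases signs_pm _ (W.wt_sq ψ a₁) with h2 | h2 <;>
      simp_all
  have hsum : ∑ a : W.A, χ.1 a * ψ.1 a = -∑ a : W.A, χ.1 a * ψ.1 a := by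
    conv_lhs => rw [← Equiv.sum_comp (Equiv.mulRight a₁)]
    rw [← Finset.sum_neg_distrib]
    refine Finset.sum_congr rfl fun a _ => ?_
    rw [Equiv.coe_mulRight, W.wt_mul, W.wt_mul]
    linear_combination (χ.1 a * ψ.1 a) * hs
  exact eq_zero_of_neg_eq hsum.symm

theorem card_ne_zero : (Nat.card W.A : ZMod 3) ≠ 0 := fun h =>
  S.not_three_dvd W.le ((ZMod.natCast_eq_zero_iff _ 3).mp h)

/-- The unnormalized projection onto a weight space. -/
noncomputable def E (χ : W.Wt) : Module.End (ZMod 3) V :=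
  letI := Fintype.ofFinite W.A
  ∑ a : W.A, χ.1 a • σ (a : G)

theorem E_apply {χ ψ : W.Wt} {v : V} (hv : v ∈ W.wsp ψ.1) :
    W.E χ v = if χ = ψ then (Nat.card W.A : ZMod 3) • v else 0 := by
  letI := Fintype.ofFinite W.A
  have h : W.E χ v = (∑ a : W.A, χ.1 a * ψ.1 a) • v := by
    rw [E, LinearMap.sum_apply, Finset.sum_smul]
    refine Finset.sum_congr rfl fun a _ => ?_
    rw [LinearMap.smul_apply, W.mem_wsp.mp hv a, smul_smul]
  rw [h]
  split_ifs with e
  · subst e
    simp [W.wt_sq, Nat.card_eq_fintype_card]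
  · rw [W.sum_orth e, zero_smul]

theorem E_same {χ : W.Wt} {v : V} (hv : v ∈ W.wsp χ.1) (h : W.E χ v = 0) : v = 0 := by
  rw [W.E_apply hv, if_pos rfl] at h
  exact (smul_eq_zero.mp h).resolve_left W.card_ne_zero

theorem E_other {χ ψ : W.Wt} {v : V} (hv : v ∈ W.wsp ψ.1) (h : χ ≠ ψ) : W.E χ v = 0 := by
  rw [W.E_apply hv, if_neg h]

/-- The conjugate weight. -/
def conjW (g : G) (χ : W.A → ZMod 3) : W.A → ZMod 3 := fun a =>
  χ ⟨g⁻¹ * a * g, W.normal.conj_mem' _ a.2 g⟩

theorem map_wsp {g : G} {χ : W.A → ZMod 3} {v : V} (hv : v ∈ W.wsp χ) :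
    σ g v ∈ W.wsp (W.conjW g χ) := by
  rw [mem_wsp] at hv ⊢
  intro a
  calc σ (a : G) (σ g v) = σ g (σ (g⁻¹ * a * g) v) := by
        rw [← mul_apply', ← mul_apply']; group
    _ = _ := by rw [hv ⟨g⁻¹ * a * g, W.normal.conj_mem' _ a.2 g⟩, map_smul]; rfl

theorem conjW_mul (g h : G) (χ : W.A → ZMod 3) : W.conjW (g * h) χ = W.conjW g (W.conjW h χ) := by
  funext a
  exact congrArg χ (Subtype.ext (by simp [mul_assoc]))

theorem conjW_one (χ : W.A → ZMod 3) : W.conjW 1 χ = χ := by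
  funext a
  exact congrArg χ (Subtype.ext (by simp))

theorem inv_apply_apply (g : G) (v : V) : σ g⁻¹ (σ g v) = v := by
  rw [← mul_apply', inv_mul_cancel, one_apply']

theorem conjW_wt (g : G) (χ : W.Wt) : W.wsp (W.conjW g χ.1) ≠ ⊥ := fun e => by
  have h := W.map_wsp (g := g) (W.vec_mem χ)
  rw [e, Submodule.mem_bot] at h
  exact W.vec_ne χ (by rw [← inv_apply_apply g (W.vec χ), h, map_zero])

/-- The permutation of the weights. -/
def perm : G →* Equiv.Perm W.Wt where
  toFun g :=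
    { toFun := fun χ => ⟨W.conjW g χ.1, W.conjW_wt g χ⟩
      invFun := fun χ => ⟨W.conjW g⁻¹ χ.1, W.conjW_wt g⁻¹ χ⟩
      left_inv := fun χ => Subtype.ext (by
        change W.conjW g⁻¹ (W.conjW g χ.1) = χ.1
        rw [← conjW_mul, inv_mul_cancel, conjW_one])
      right_inv := fun χ => Subtype.ext (by
        change W.conjW g (W.conjW g⁻¹ χ.1) = χ.1
        rw [← conjW_mul, mul_inv_cancel, conjW_one]) }
  map_one' := Equiv.ext fun χ => Subtype.ext (W.conjW_one χ.1)
  map_mul' g h := Equiv.ext fun χ => Subtype.ext (W.conjW_mul g h χ.1)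

theorem map_mem {g : G} {χ : W.Wt} {v : V} (hv : v ∈ W.wsp χ.1) :
    σ g v ∈ W.wsp (W.perm g χ).1 := W.map_wsp hv

theorem exists_wt : ∃ χ, W.wsp χ ≠ ⊥ := by
  classical
  obtain ⟨v₀, _, hv₀⟩ := S.exists_gen 0
  haveI := Fintype.ofFinite W.A
  have key : ∀ s : Finset W.A, ∃ v : V, v ≠ 0 ∧ ∀ a ∈ s, σ (a : G) v = v ∨ σ (a : G) v = -v := by
    intro s
    induction s using Finset.induction with
    | empty => exact ⟨v₀, hv₀, by simp⟩
    | insert a s _ ih =>
      obtain ⟨v, hv, hs⟩ := ih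
      have hc : ∀ a' : W.A, σ (a' : G) (σ (a : G) v) = σ (a : G) (σ (a' : G) v) := fun a' => by
        rw [← mul_apply', W.comm a'.2 a.2, mul_apply']
      have hsq : σ (a : G) (σ (a : G) v) = v := by rw [← mul_apply', W.sq _ a.2, one_apply']
      by_cases h : v + σ (a : G) v = 0
      · refine ⟨v, hv, ?_⟩
        intro a' ha'
        rcases Finset.mem_insert.mp ha' with rfl | ha'
        · exact Or.inr (eq_neg_of_add_eq_zero_right h)
        · exact hs a' ha'
      · refine ⟨v + σ (a : G) v, h, ?_⟩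
        intro a' ha'
        rcases Finset.mem_insert.mp ha' with rfl | ha'
        · exact Or.inl (by rw [map_add, hsq, add_comm])
        · rcases hs a' ha' with e | e
          · exact Or.inl (by rw [map_add, hc, e])
          · exact Or.inr (by rw [map_add, hc, e, map_neg, neg_add])
  obtain ⟨v, hv, hall⟩ := key Finset.univ
  have hsm : ∀ a : W.A, ∃ c : ZMod 3, σ (a : G) v = c • v := fun a => by
    rcases hall a (Finset.mem_univ a) with e | e
    · exact ⟨1, by rw [e, one_smul]⟩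
    · exact ⟨-1, by rw [e, neg_one_smul]⟩
  choose c hc using hsm
  exact ⟨c, fun e => hv ((Submodule.eq_bot_iff _).mp e v (W.mem_wsp.mpr hc))⟩

theorem invariant_iSup_eq_top (T : Set W.Wt) (hT : T.Nonempty)
    (hinv : ∀ g, ∀ χ ∈ T, W.perm g χ ∈ T) : ⨆ χ : T, W.wsp χ.1.1 = ⊤ := by
  rcases S.irr (⨆ χ : T, W.wsp χ.1.1) (fun g v hv => by
    refine Submodule.iSup_induction (fun χ : T => W.wsp χ.1.1) (motive := fun w => σ g w ∈ _) hv
      (fun χ w hw => ?_) (by simp) (fun x y hx hy => by rw [map_add]; exact add_mem hx hy)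
    exact Submodule.mem_iSup_of_mem (⟨W.perm g χ.1, hinv g χ.1 χ.2⟩ : T) (W.map_mem hw))
    with h | h
  · obtain ⟨χ, hχ⟩ := hT
    exact absurd (le_bot_iff.mp ((le_iSup (fun χ : T => W.wsp χ.1.1) ⟨χ, hχ⟩).trans h.le)) χ.2
  · exact h

theorem iSup_wsp : ⨆ χ : W.Wt, W.wsp χ.1 = ⊤ := by
  obtain ⟨χ, hχ⟩ := W.exists_wt
  rw [← top_le_iff, ← W.invariant_iSup_eq_top Set.univ ⟨⟨χ, hχ⟩, Set.mem_univ _⟩
    (fun _ _ _ => Set.mem_univ _)]
  exact iSup_le fun χ => le_iSup (fun χ : W.Wt => W.wsp χ.1) χ.1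

theorem transitive (χ ψ : W.Wt) : ∃ g, W.perm g χ = ψ := by
  by_contra hne
  push Not at hne
  let T : Set W.Wt := Set.range fun g => W.perm g χ
  have htop := W.invariant_iSup_eq_top T ⟨χ, 1, by simp⟩ (by
    rintro g _ ⟨h, rfl⟩
    exact ⟨g * h, by simp [map_mul]⟩)
  have hker : ⨆ χ : T, W.wsp χ.1.1 ≤ LinearMap.ker (W.E ψ) := iSup_le fun φ v hv => by
    obtain ⟨g, hg⟩ := φ.2
    exact W.E_other hv (fun e => hne g (hg.trans e.symm))
  have : W.vec ψ ∈ LinearMap.ker (W.E ψ) := hker (by rw [htop]; exact Submodule.mem_top)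
  exact W.vec_ne ψ (W.E_same (W.vec_mem ψ) this)

theorem ext_on_wsp {f g : Module.End (ZMod 3) V} (h : ∀ χ : W.Wt, ∀ v ∈ W.wsp χ.1, f v = g v) :
    f = g := by
  ext v
  have hv : v ∈ ⨆ χ : W.Wt, W.wsp χ.1 := W.iSup_wsp ▸ Submodule.mem_top
  refine Submodule.iSup_induction (fun χ : W.Wt => W.wsp χ.1) (motive := fun w => f w = g w) hv h
    (by simp) (fun x y hx hy => by simp [hx, hy])

theorem perm_A {a : G} (ha : a ∈ W.A) : W.perm a = 1 := by
  refine Equiv.ext fun χ => Subtype.ext (funext fun a' => congrArg χ.1 (Subtype.ext ?_))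
  change a⁻¹ * a' * a = a'
  rw [mul_assoc, W.comm a'.2 ha, inv_mul_cancel_left]

theorem R_le_ker_of_b {f : G →* Equiv.Perm W.Wt} (h : f S.b = 1) : f = 1 := by
  have hb : Subgroup.zpowers S.b ≤ f.ker := by rw [Subgroup.zpowers_le]; exact h
  have hR : S.R ≤ f.ker := by
    rw [S.comm, Subgroup.commutator_le]
    intro r _ y hy
    rw [MonoidHom.mem_ker, map_commutatorElement, (MonoidHom.mem_ker).mp (hb hy)]
    simp
  ext g : 1
  have : g ∈ f.ker := (sup_le hR hb) (S.gen ▸ Subgroup.mem_top g)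
  exact this

theorem exists_moved : ∃ χ, W.perm S.b χ ≠ χ := by
  by_contra hne
  push Not at hne
  have h1 : W.perm = 1 := R_le_ker_of_b W (Equiv.ext hne)
  obtain ⟨χ, hχ⟩ := W.exists_wt
  set χ' : W.Wt := ⟨χ, hχ⟩
  have htop := W.invariant_iSup_eq_top {χ'} ⟨χ', rfl⟩ (fun g ψ hψ => by
    rw [h1]; exact hψ)
  have hsc : σ W.a₀ = χ ⟨W.a₀, W.a₀_mem⟩ • (1 : Module.End (ZMod 3) V) := by
    ext v
    have hv : v ∈ W.wsp χ := by
      have : ⨆ φ : ({χ'} : Set W.Wt), W.wsp φ.1.1 ≤ W.wsp χ :=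
        iSup_le fun φ => by rw [show φ.1 = χ' from φ.2]
      exact this (htop ▸ Submodule.mem_top)
    simpa using W.mem_wsp.mp hv ⟨W.a₀, W.a₀_mem⟩
  rcases signs_pm _ (W.wt_sq χ' ⟨W.a₀, W.a₀_mem⟩) with e | e
  · exact W.a₀_one (by rw [hsc, show χ ⟨W.a₀, W.a₀_mem⟩ = 1 from e, one_smul])
  · exact W.a₀_neg (by rw [hsc, show χ ⟨W.a₀, W.a₀_mem⟩ = -1 from e, neg_one_smul])

theorem b_cube (χ : W.Wt) : W.perm S.b (W.perm S.b (W.perm S.b χ)) = χ := by
  rw [← Perm.mul_apply, ← Perm.mul_apply, ← map_mul, ← map_mul, ← pow_two, ← pow_succ, S.b3,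
    map_one, Perm.one_apply]

theorem moved_injective {χ : W.Wt} (h : W.perm S.b χ ≠ χ) {x y : V} (hx : x ∈ W.wsp χ.1)
    (hy : y ∈ W.wsp (W.perm S.b χ).1) (hf : σ S.b (x + y) = x + y) : x = 0 ∧ y = 0 := by
  have hbx : σ S.b x ∈ W.wsp (W.perm S.b χ).1 := W.map_mem hx
  have hby : σ S.b y ∈ W.wsp (W.perm S.b (W.perm S.b χ)).1 := W.map_mem hy
  have h2 : χ ≠ W.perm S.b (W.perm S.b χ) := fun e => h (by
    nth_rewrite 1 [e]; exact W.b_cube χ)
  have h3 : W.perm S.b χ ≠ W.perm S.b (W.perm S.b χ) := fun e => h ((W.perm S.b).injective e.symm)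
  rw [map_add] at hf
  have e0 := congrArg (W.E χ) hf
  rw [map_add, map_add, W.E_other hbx h.symm, W.E_other hby h2, W.E_other hy h.symm, add_zero,
    add_zero] at e0
  have hx0 := W.E_same hx e0.symm
  subst hx0
  refine ⟨rfl, ?_⟩
  rw [map_zero, zero_add, zero_add] at hf
  refine W.E_same hy ?_
  rw [← hf]
  exact W.E_other hby h3

theorem finrank_moved {χ : W.Wt} (h : W.perm S.b χ ≠ χ) :
    finrank (ZMod 3) (W.wsp χ.1) + finrank (ZMod 3) (W.wsp (W.perm S.b χ).1) ≤ 2 := by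
  let L : (W.wsp χ.1 × W.wsp (W.perm S.b χ).1) →ₗ[ZMod 3] V :=
    (σ S.b - 1).comp ((W.wsp χ.1).subtype.coprod (W.wsp (W.perm S.b χ).1).subtype)
  have hL : Function.Injective L := by
    rw [injective_iff_map_eq_zero]
    rintro ⟨⟨x, hx⟩, ⟨y, hy⟩⟩ e
    have e' : σ S.b (x + y) - (x + y) = 0 := e
    obtain ⟨rfl, rfl⟩ := W.moved_injective h hx hy (sub_eq_zero.mp e')
    rfl
  rw [← Module.finrank_prod, ← LinearMap.finrank_range_of_inj hL]
  exact (Submodule.finrank_mono (LinearMap.range_comp_le_range _ _)).trans S.rank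

theorem finrank_pos' (χ : W.Wt) : 0 < finrank (ZMod 3) (W.wsp χ.1) :=
  Nat.pos_of_ne_zero fun e => χ.2 (Submodule.finrank_eq_zero.mp e)

theorem finrank_le_perm (g : G) (χ : W.Wt) :
    finrank (ZMod 3) (W.wsp χ.1) ≤ finrank (ZMod 3) (W.wsp (W.perm g χ).1) := by
  refine LinearMap.finrank_le_finrank_of_injective
    (f := (σ g).restrict (fun v hv => W.map_mem (g := g) hv)) ?_
  intro x y e
  have := congrArg (fun z : W.wsp (W.perm g χ).1 => σ g⁻¹ (z : V)) e
  exact Subtype.ext (by simpa [inv_apply_apply] using this)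

theorem finrank_wsp (χ : W.Wt) : finrank (ZMod 3) (W.wsp χ.1) = 1 := by
  obtain ⟨χ₀, h⟩ := W.exists_moved
  obtain ⟨g, hg⟩ := W.transitive χ₀ χ
  have h1 := W.finrank_le_perm g⁻¹ χ
  rw [← hg, ← Perm.mul_apply, ← map_mul, inv_mul_cancel, map_one, Perm.one_apply, hg] at h1
  have h2 := W.finrank_moved h
  have h3 := W.finrank_pos' χ
  have h4 := W.finrank_le_perm S.b χ₀
  omega

theorem cycle_three {χ ψ : W.Wt} (h : W.perm S.b χ ≠ χ) (hψ : W.perm S.b ψ ≠ ψ)
    (h0 : ψ ≠ χ) (h1 : ψ ≠ W.perm S.b χ) : ψ = W.perm S.b (W.perm S.b χ) := by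
  by_contra h2
  set χ1 := W.perm S.b χ with hχ1
  set χ2 := W.perm S.b χ1 with hχ2
  set ψ1 := W.perm S.b ψ with hψ1
  have n0 : ψ1 ≠ χ := fun e => h2 ((W.perm S.b).injective (e.trans (W.b_cube χ).symm))
  have n1 : ψ1 ≠ χ1 := fun e => h0 ((W.perm S.b).injective e)
  have c2 : χ ≠ χ2 := fun e => h (by rw [hχ1]; nth_rewrite 1 [e]; exact W.b_cube χ)
  let L : (W.wsp χ.1 × W.wsp χ1.1 × W.wsp ψ.1) →ₗ[ZMod 3] V :=
    (σ S.b - 1).comp ((W.wsp χ.1).subtype.coprod ((W.wsp χ1.1).subtype.coprod (W.wsp ψ.1).subtype))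
  have hL : Function.Injective L := by
    rw [injective_iff_map_eq_zero]
    rintro ⟨⟨x, hx⟩, ⟨y, hy⟩, ⟨z, hz⟩⟩ e
    have e' : σ S.b (x + (y + z)) - (x + (y + z)) = 0 := e
    rw [sub_eq_zero] at e'
    have hbx : σ S.b x ∈ W.wsp χ1.1 := W.map_mem hx
    have hby : σ S.b y ∈ W.wsp χ2.1 := W.map_mem hy
    have hbz : σ S.b z ∈ W.wsp ψ1.1 := W.map_mem hz
    simp only [map_add] at e'
    have e0 := congrArg (W.E ψ1) e'
    simp only [map_add] at e0
    rw [W.E_other hbx n1, W.E_other hby (fun e => h1 ((W.perm S.b).injective e)),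
      W.E_other hx n0, W.E_other hy n1, W.E_other hz (fun e => hψ e), zero_add, zero_add,
      add_zero, add_zero] at e0
    have hz0 : z = 0 := by
      have := W.E_same hbz e0
      rw [← inv_apply_apply S.b z, this, map_zero]
    subst hz0
    have e'' : σ S.b (x + y) = x + y := by
      rw [map_zero, add_zero, add_zero] at e'
      rw [map_add]; exact e'
    obtain ⟨rfl, rfl⟩ := W.moved_injective h hx hy e''
    rfl
  have := (LinearMap.finrank_range_of_inj hL).symm.trans_le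
    ((Submodule.finrank_mono (LinearMap.range_comp_le_range _ _)).trans S.rank)
  rw [Module.finrank_prod, Module.finrank_prod, W.finrank_wsp, W.finrank_wsp, W.finrank_wsp] at this
  omega

theorem isThreeCycle : (W.perm S.b).IsThreeCycle := by
  obtain ⟨χ, h⟩ := W.exists_moved
  have h' : W.perm S.b (W.perm S.b χ) ≠ W.perm S.b χ := fun e => h ((W.perm S.b).injective e)
  have c2 : χ ≠ W.perm S.b (W.perm S.b χ) := fun e => h (by nth_rewrite 1 [e]; exact W.b_cube χ)
  rw [← card_support_eq_three_iff, Finset.card_eq_three]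
  refine ⟨χ, W.perm S.b χ, W.perm S.b (W.perm S.b χ), h.symm, c2, h'.symm, ?_⟩
  ext ψ
  simp only [Perm.mem_support, Finset.mem_insert, Finset.mem_singleton]
  constructor
  · intro hψ
    by_cases h0 : ψ = χ
    · exact Or.inl h0
    by_cases h1 : ψ = W.perm S.b χ
    · exact Or.inr (Or.inl h1)
    exact Or.inr (Or.inr (W.cycle_three h hψ h0 h1))
  · rintro (rfl | rfl | rfl)
    · exact h
    · exact h'
    · exact fun e => h' ((W.perm S.b).injective e)

theorem three_le : 3 ≤ Nat.card W.Wt := by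
  rw [Nat.card_eq_fintype_card, ← W.isThreeCycle.card_support]
  exact Finset.card_le_univ _

theorem R_le_even {r : G} (hr : r ∈ S.R) : Perm.sign (W.perm r) = 1 :=
  (Abelianization.commutator_subset_ker (Perm.sign.comp W.perm) (S.R_le_commutator hr) : _)

theorem perm_even (g : G) : Perm.sign (W.perm g) = 1 := by
  have h : S.R ⊔ Subgroup.zpowers S.b ≤ (Perm.sign.comp W.perm).ker := by
    refine sup_le (fun r hr => W.R_le_even hr) ?_
    rw [Subgroup.zpowers_le]
    exact W.isThreeCycle.sign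
  exact h (S.gen ▸ Subgroup.mem_top g)

theorem card_le_four : Nat.card W.Wt ≤ 4 := by
  set H := W.perm.range with hH
  haveI : MulAction.IsPretransitive H W.Wt := ⟨fun x y => by
    obtain ⟨g, hg⟩ := W.transitive x y
    exact ⟨⟨W.perm g, g, rfl⟩, hg⟩⟩
  haveI : MulAction.IsPreprimitive H W.Wt := by
    refine MulAction.IsPreprimitive.mk fun {B} hB => ?_
    by_cases hsub : B.Subsingleton
    · exact Or.inl hsub
    refine Or.inr (Set.eq_univ_of_forall fun y => ?_)
    obtain ⟨x₁, hx₁, x₂, hx₂, hne⟩ := Set.not_subsingleton_iff.mp hsub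
    have hfix : ∀ τ : H, (τ : Perm W.Wt).IsThreeCycle → τ • B = B := by
      intro τ hτ
      by_contra hτB
      have hd : Disjoint (τ • B) B := (MulAction.isBlock_iff_smul_eq_or_disjoint.mp hB τ).resolve_left hτB
      have hout : ∀ x ∈ B, (τ : Perm W.Wt) x ∉ B := fun x hx hmem =>
        Set.disjoint_left.mp hd (Set.smul_mem_smul_set hx) hmem
      have hmov : ∀ x ∈ B, x ∈ (τ : Perm W.Wt).support := fun x hx => by
        rw [Perm.mem_support]
        intro e
        exact hout x hx (by rwa [e])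
      obtain ⟨a, b, c, hab, hac, hbc, hs⟩ := Finset.card_eq_three.mp hτ.card_support
      have hcyc := hτ.isCycle
      have hsame := hcyc.sameCycle (Perm.mem_support.mp (hmov x₁ hx₁)) (Perm.mem_support.mp (hmov x₂ hx₂))
      obtain ⟨i, hi, he⟩ := hsame.exists_pow_eq' 
      rw [hτ.orderOf] at hi
      interval_cases i
      · exact hne (by simpa using he)
      · exact hout x₁ hx₁ (by simpa using he ▸ hx₂)
      · refine hout x₂ hx₂ ?_
        have h3 : ((τ : Perm W.Wt) ^ 3) x₁ = x₁ := by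
          rw [← hτ.orderOf, pow_orderOf_eq_one, Perm.one_apply]
        rw [← he, ← Perm.mul_apply, ← pow_succ', h3]
        exact hx₁
    let K : Subgroup G := (MulAction.stabilizer H B).comap W.perm.rangeRestrict
    have hconj : ∀ g, g * S.b * g⁻¹ ∈ K := fun g => by
      refine hfix _ ?_
      change (W.perm (g * S.b * g⁻¹)).IsThreeCycle
      rw [← card_support_eq_three_iff, map_mul, map_mul, map_inv, Perm.card_support_conj]
      exact W.isThreeCycle.card_support
    have hbK : S.b ∈ K := by simpa using hconj 1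
    have hK : K = ⊤ := by
      rw [← top_le_iff, ← S.gen]
      refine sup_le ?_ (by rw [Subgroup.zpowers_le]; exact hbK)
      rw [S.comm, Subgroup.commutator_le]
      intro r _ y hy
      obtain ⟨n, rfl⟩ := Subgroup.mem_zpowers_iff.mp hy
      rw [commutatorElement_def, ← conj_zpow]
      exact K.mul_mem (K.zpow_mem (hconj r) n) (K.inv_mem (K.zpow_mem hbK n))
    obtain ⟨g, hg⟩ := W.transitive x₁ y
    have hgK : g ∈ K := hK ▸ Subgroup.mem_top g
    have : W.perm.rangeRestrict g • B = B := hgK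
    rw [← this, ← hg]
    exact Set.smul_mem_smul_set hx₁
  have halt := Perm.alternatingGroup_le_of_isPreprimitive_of_isThreeCycle_mem (G := H)
    inferInstance W.isThreeCycle ⟨S.b, rfl⟩
  by_contra hgt
  push Not at hgt
  haveI := S.solv
  haveI := S.normal
  haveI : Group.IsSolvable G := by
    haveI : IsCyclic (G ⧸ S.R) := by
      refine ⟨⟨QuotientGroup.mk' S.R S.b, fun x => ?_⟩⟩
      obtain ⟨g, rfl⟩ := QuotientGroup.mk'_surjective S.R x
      have hg : g ∈ ((S.R : Set G) * (Subgroup.zpowers S.b : Set G)) := by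
        rw [← Subgroup.normal_mul, S.gen]; trivial
      obtain ⟨r, hr, y, hy, rfl⟩ := Set.mem_mul.mp hg
      obtain ⟨n, rfl⟩ := Subgroup.mem_zpowers_iff.mp hy
      refine ⟨n, ?_⟩
      change (QuotientGroup.mk' S.R S.b) ^ n = _
      rw [map_mul, show QuotientGroup.mk' S.R r = 1 from (QuotientGroup.eq_one_iff r).mpr hr, one_mul, map_zpow]
    haveI : Group.IsSolvable (G ⧸ S.R) := by
      letI := IsCyclic.commGroup (α := G ⧸ S.R)
      exact Group.isSolvable_of_comm mul_comm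
    exact Group.isSolvable_of_ker_le_range (G' := S.R) (G'' := G ⧸ S.R) S.R.subtype
      (QuotientGroup.mk' S.R) (by rw [QuotientGroup.ker_mk', Subgroup.range_subtype])
  haveI : Group.IsSolvable H := Group.isSolvable_of_surjective W.perm.rangeRestrict_surjective
  haveI : Group.IsSolvable (alternatingGroup W.Wt) :=
    Group.isSolvable_of_isSolvable_injective (f := Subgroup.inclusion halt) (Subgroup.inclusion_injective halt)
  refine Equiv.Perm.not_solvable W.Wt (by rw [Cardinal.mk_fintype, Nat.card_eq_fintype_card] at *; exact_mod_cast hgt) ?_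
  exact Group.isSolvable_of_ker_le_range (alternatingGroup W.Wt).subtype Perm.sign
    (by rw [Subgroup.range_subtype]; rfl)

/-- The scalar by which `g` moves a chosen vector. -/
theorem exists_coef (g : G) (χ : W.Wt) : ∃ c : ZMod 3, σ g (W.vec χ) = c • W.vec (W.perm g χ) := by
  obtain ⟨c, hc⟩ := exists_smul_eq_of_finrank_eq_one (W.finrank_wsp (W.perm g χ))
    (x := (⟨W.vec _, W.vec_mem _⟩ : W.wsp (W.perm g χ).1))
    (fun e => W.vec_ne _ (congrArg Subtype.val e)) ⟨σ g (W.vec χ), W.map_mem (W.vec_mem χ)⟩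
  exact ⟨c, (congrArg Subtype.val hc).symm⟩

/-- The coefficient. -/
noncomputable def coef (g : G) (χ : W.Wt) : ZMod 3 := (W.exists_coef g χ).choose

theorem coef_spec (g : G) (χ : W.Wt) : σ g (W.vec χ) = W.coef g χ • W.vec (W.perm g χ) :=
  (W.exists_coef g χ).choose_spec

theorem coef_mul (g h : G) (χ : W.Wt) :
    W.coef (g * h) χ = W.coef g (W.perm h χ) * W.coef h χ := by
  refine smul_left_injective (ZMod 3) (W.vec_ne (W.perm (g * h) χ)) ?_
  change W.coef (g * h) χ • W.vec _ = (_ * _) • W.vec _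
  rw [← coef_spec, mul_apply', coef_spec W h, map_smul, coef_spec W g, smul_smul, mul_comm, map_mul,
    Perm.mul_apply]

theorem coef_one (χ : W.Wt) : W.coef 1 χ = 1 := by
  refine smul_left_injective (ZMod 3) (W.vec_ne (W.perm 1 χ)) ?_
  change W.coef 1 χ • W.vec _ = (1 : ZMod 3) • W.vec _
  rw [← coef_spec, one_apply', one_smul, map_one, Perm.one_apply]

theorem coef_ne (g : G) (χ : W.Wt) : W.coef g χ ≠ 0 := fun e => by
  have h := W.coef_mul g⁻¹ g χ
  rw [inv_mul_cancel, coef_one, e, mul_zero] at h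
  exact one_ne_zero h

/-- The product of the coefficients. -/
noncomputable def phi : G →* ZMod 3 where
  toFun g := ∏ χ, W.coef g χ
  map_one' := by simp [coef_one]
  map_mul' g h := by
    simp only [coef_mul, Finset.prod_mul_distrib]
    rw [Equiv.prod_comp (W.perm h) (W.coef g)]

theorem phi_R {r : G} (hr : r ∈ S.R) : ∏ χ, W.coef r χ = 1 := by
  have h : r ∈ (W.phi.toHomUnits).ker :=
    Abelianization.commutator_subset_ker W.phi.toHomUnits (S.R_le_commutator hr)
  have := congrArg Units.val ((MonoidHom.mem_ker).mp h)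
  simpa [phi] using this

theorem eq_of_coef {g h : G} (hp : W.perm g = W.perm h) (hc : W.coef g = W.coef h) : g = h := by
  refine S.inj (W.ext_on_wsp fun χ v hv => ?_)
  obtain ⟨c, hc'⟩ := exists_smul_eq_of_finrank_eq_one (W.finrank_wsp χ)
    (x := (⟨W.vec χ, W.vec_mem χ⟩ : W.wsp χ.1)) (fun e => W.vec_ne _ (congrArg Subtype.val e))
    ⟨v, hv⟩
  have e : v = c • W.vec χ := (congrArg Subtype.val hc').symm
  rw [e, map_smul, map_smul, coef_spec, coef_spec, hp, hc]

end WData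

end Cfsg.Agent.CubicModule
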