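/-
The monomial case of the cubic setting: three lines give a four group, four lines an extraspecial
group of order 32.
-/
import Cfsg.Agent.CubicModule.Weights
import Cfsg.Agent.FGS3.PGroupFrattini
import Cfsg.Prelude.Def_Transfer

set_option autoImplicit false
set_option linter.unusedSectionVars false

namespace Cfsg.Agent.CubicModule

open Module Equiv
open scoped commutatorElement

set_option maxRecDepth 100000 in
theorem even_perm_four : ∀ τ : Perm (Fin 4), Perm.sign τ = 1 → τ * τ * (τ * τ) = 1 → τ ≠ 1 →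
    (τ * τ = 1 ∧ ∀ x, τ x ≠ x) := by decide

theorem card_signs_three :
    (Finset.univ.filter fun f : Fin 3 → ZMod 3 => (∀ i, f i ≠ 0) ∧ ∏ i, f i = 1).card = 4 := by
  decide

theorem card_signs_four :
    (Finset.univ.filter fun f : Fin 4 → ZMod 3 => (∀ i, f i ≠ 0) ∧ ∏ i, f i = 1).card = 8 := by
  decide

theorem four_signs : ∀ a b c d : ZMod 3, a * a = 1 → b * b = 1 → c * c = 1 → d * d = 1 →
    a * b * c * d = 1 → a * b = c * d := by decide

theorem cycle_sign : ∀ s f0 f1 f2 : ZMod 3, s * s = 1 → f0 * f0 = 1 → f1 = s * f0 → f2 = s * f1 →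
    f0 = s * f2 → f1 = f0 ∧ f2 = f0 := by decide

theorem fourth_sign : ∀ a b : ZMod 3, a * a = 1 → b * b = 1 → a * a * a * b = 1 → a = b := by decide

variable {G : Type*} [Group G] [Finite G] {V : Type*} [AddCommGroup V] [Module (ZMod 3) V] [Finite V]
variable {σ : Representation (ZMod 3) G V} {S : Setup σ}

/-- The conclusion of the classification. -/
def Concl (S : Setup σ) : Prop :=
  (Cfsg.IsElementaryAbelian 2 S.R ∧ Nat.card S.R = 4) ∨
    (Cfsg.IsExtraspecial 2 S.R ∧ Nat.card S.R = 32 ∧
      ∃ A : Subgroup G, A ≤ S.R ∧ Cfsg.IsElementaryAbelian 2 A ∧ Nat.card A = 8)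

namespace WData

variable (W : WData S)

/-- The diagonal part of `R`. -/
def diag : Subgroup G := S.R ⊓ W.perm.ker

theorem mem_diag {g : G} : g ∈ W.diag ↔ g ∈ S.R ∧ W.perm g = 1 := Iff.rfl

theorem coef_sq (g : G) (χ : W.Wt) : W.coef g χ * W.coef g χ = 1 := sq_of_ne _ (W.coef_ne g χ)

theorem diag_sq {g : G} (hg : g ∈ W.diag) : g * g = 1 := by
  obtain ⟨_, hp⟩ := W.mem_diag.mp hg
  refine W.eq_of_coef (by rw [map_mul, hp, map_one, one_mul]) (funext fun χ => ?_)
  rw [W.coef_mul, W.coef_one, hp, Perm.one_apply, W.coef_sq]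

theorem card_diag_le {k : ℕ} (e : W.Wt ≃ Fin k) : Nat.card W.diag ≤
    (Finset.univ.filter fun f : Fin k → ZMod 3 => (∀ i, f i ≠ 0) ∧ ∏ i, f i = 1).card := by
  classical
  set F := Finset.univ.filter fun f : Fin k → ZMod 3 => (∀ i, f i ≠ 0) ∧ ∏ i, f i = 1
  let m : W.diag → F := fun g => ⟨fun i => W.coef (g : G) (e.symm i), by
    simp only [F, Finset.mem_filter, Finset.mem_univ, true_and]
    refine ⟨fun i => W.coef_ne _ _, ?_⟩
    rw [Equiv.prod_comp e.symm (fun χ => W.coef (g : G) χ)]
    exact W.phi_R g.2.1⟩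
  have hm : Function.Injective m := by
    intro g h hgh
    refine Subtype.ext (W.eq_of_coef ?_ (funext fun χ => ?_))
    · rw [(W.mem_diag.mp g.2).2, (W.mem_diag.mp h.2).2]
    · simpa [m] using congrFun (congrArg Subtype.val hgh) (e χ)
  have := Nat.card_le_card_of_injective m hm
  rwa [Nat.card_eq_fintype_card (α := F), Fintype.card_coe] at this

theorem isPGroup_diag : IsPGroup 2 W.diag := fun g => ⟨1, Subtype.ext (by
  rw [Subgroup.coe_pow, pow_one, pow_two]; exact W.diag_sq g.2)⟩

theorem card_perm_R : Nat.card (S.R.map W.perm) ∣ Nat.card S.R := Subgroup.card_map_dvd _ _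

theorem R_map_le : S.R.map W.perm ≤ alternatingGroup W.Wt := by
  rintro _ ⟨r, hr, rfl⟩
  exact Perm.mem_alternatingGroup.mpr (W.R_le_even hr)

theorem concl_three (hk : Nat.card W.Wt = 3) : Concl S := by
  classical
  have h1 : Nat.card (S.R.map W.perm) = 1 := by
    have hA : Nat.card (alternatingGroup W.Wt) = 3 := by
      haveI : Nontrivial W.Wt := Finite.one_lt_card_iff_nontrivial.mp (by omega)
      rw [nat_card_alternatingGroup, hk]; rfl
    have h := Subgroup.card_dvd_of_le W.R_map_le
    rw [hA] at h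
    rcases (Nat.dvd_prime Nat.prime_three).mp h with h' | h'
    · exact h'
    · exact absurd ((dvd_of_eq h'.symm).trans W.card_perm_R) (S.not_three_dvd le_rfl)
  have hRd : S.R ≤ W.diag := fun r hr => W.mem_diag.mpr ⟨hr, by
    have : W.perm r ∈ S.R.map W.perm := Subgroup.mem_map_of_mem _ hr
    rwa [Subgroup.eq_bot_of_card_eq _ h1, Subgroup.mem_bot] at this⟩
  have hsq : ∀ r ∈ S.R, r * r = 1 := fun r hr => W.diag_sq (hRd hr)
  left
  refine ⟨⟨⟨⟨fun x y => Subtype.ext ?_⟩⟩, fun x hx => by rw [pow_two]; exact hsq x hx⟩, ?_⟩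
  · have h1 : ∀ z ∈ S.R, z⁻¹ = z := fun z hz => inv_eq_of_mul_eq_one_right (hsq z hz)
    calc (x : G) * y = ((x : G) * y)⁻¹ := (h1 _ (S.R.mul_mem x.2 y.2)).symm
      _ = (y : G) * x := by rw [mul_inv_rev, h1 _ x.2, h1 _ y.2]
  refine le_antisymm ?_ ?_
  · refine (Subgroup.card_le_of_le hRd).trans ((W.card_diag_le (Finite.equivFinOfCardEq hk)).trans ?_)
    rw [card_signs_three]
  · have hne01 : S.q 0 ≠ S.q 1 := fun e => S.q_ne 2 (by
      rw [show S.q 2 = S.q 0 * S.q 1 from (S.q_mul 0).symm, e, S.q_sq])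
    have hne02 : S.q 0 ≠ S.q 2 := fun e => S.q_ne 1 (by
      rw [show S.q 1 = S.q 2 * S.q 0 from (S.q_mul 2).symm, e, S.q_sq])
    have hne12 : S.q 1 ≠ S.q 2 := fun e => S.q_ne 0 (by
      rw [show S.q 0 = S.q 1 * S.q 2 from (S.q_mul 1).symm, e, S.q_sq])
    let T : Finset G := {1, S.q 0, S.q 1, S.q 2}
    have hT : T.card = 4 := by
      simp [T, (S.q_ne 0).symm, (S.q_ne 1).symm, (S.q_ne 2).symm, hne01, hne02, hne12]
    have hsub : (T : Set G) ⊆ (S.R : Set G) := by
      intro x hx
      simp [T] at hx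
      rcases hx with rfl | rfl | rfl | rfl
      · exact S.R.one_mem
      all_goals exact S.q_mem _
    rw [← hT, ← Set.ncard_coe_finset]
    exact Set.ncard_le_ncard hsub (Set.toFinite _)

theorem perm_four {r : G} (hr : r ∈ S.R) (hk : Nat.card W.Wt = 4)
    (h4 : Nat.card (S.R.map W.perm) ∣ 4) (hne : W.perm r ≠ 1) :
    W.perm r * W.perm r = 1 ∧ ∀ χ, W.perm r χ ≠ χ := by
  classical
  set e := Finite.equivFinOfCardEq hk
  set τ := e.permCongrHom (W.perm r) with hτ
  have hpow : W.perm r ^ 4 = 1 :=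
    orderOf_dvd_iff_pow_eq_one.mp ((Subgroup.orderOf_dvd_natCard _ (Subgroup.mem_map_of_mem _ hr)).trans h4)
  have h1 : Perm.sign τ = 1 := by
    rw [hτ]
    exact (Perm.sign_permCongr e _).trans (W.R_le_even hr)
  have h2 : τ * τ * (τ * τ) = 1 := by
    rw [hτ, ← map_mul, ← map_mul, ← pow_two, ← pow_two, ← pow_mul, hpow, map_one]
  have h3 : τ ≠ 1 := fun h => hne (e.permCongrHom.injective (by rw [map_one]; exact h))
  obtain ⟨h5, h6⟩ := even_perm_four τ h1 h2 h3
  refine ⟨e.permCongrHom.injective (by rw [map_mul, map_one]; exact h5), fun χ hχ => h6 (e χ) ?_⟩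
  change e (W.perm r (e.symm (e χ))) = e χ
  rw [Equiv.symm_apply_apply, hχ]

theorem concl_four (hk : Nat.card W.Wt = 4) : Concl S := by
  classical
  haveI := W.normal
  haveI := S.normal
  haveI : Nontrivial W.Wt := Finite.one_lt_card_iff_nontrivial.mp (by omega)
  have h4 : Nat.card (S.R.map W.perm) ∣ 4 := by
    have hA : Nat.card (alternatingGroup W.Wt) = 12 := by
      rw [nat_card_alternatingGroup, hk]; rfl
    have h := Subgroup.card_dvd_of_le W.R_map_le
    rw [hA, show (12 : ℕ) = 3 * 4 from rfl] at h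
    exact (Nat.Coprime.dvd_of_dvd_mul_left ((Nat.prime_three.coprime_iff_not_dvd.mpr fun h3 =>
      S.not_three_dvd le_rfl (h3.trans W.card_perm_R)).symm) h)
  -- the fixed point of `b`
  obtain ⟨w, hw⟩ : ∃ w, W.perm S.b w = w := by
    by_contra hne
    push Not at hne
    have hu : (W.perm S.b).support = Finset.univ :=
      Finset.eq_univ_of_forall fun χ => Perm.mem_support.mpr (hne χ)
    have := W.isThreeCycle.card_support
    rw [hu, Finset.card_univ, ← Nat.card_eq_fintype_card, hk] at this
    omega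
  have hmov : ∀ x, x ≠ w → W.perm S.b x ≠ x := by
    intro x hx e
    have hsub : (W.perm S.b).support ⊆ (Finset.univ.erase w).erase x := fun y hy => by
      have hy' := Perm.mem_support.mp hy
      exact Finset.mem_erase.mpr ⟨fun h => hy' (h ▸ e),
        Finset.mem_erase.mpr ⟨fun h => hy' (h ▸ hw), Finset.mem_univ _⟩⟩
    have := Finset.card_le_card hsub
    rw [W.isThreeCycle.card_support, Finset.card_erase_of_mem (Finset.mem_erase.mpr ⟨hx, Finset.mem_univ _⟩),
      Finset.card_erase_of_mem (Finset.mem_univ _), Finset.card_univ, ← Nat.card_eq_fintype_card, hk] at this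
    omega
  -- the image of R is not trivial
  obtain ⟨t, htR, ht⟩ : ∃ t ∈ S.R, W.perm t ≠ 1 := by
    by_contra hne
    push Not at hne
    have hfix : ∀ g, W.perm g w = w := by
      intro g
      have hle : S.R ⊔ Subgroup.zpowers S.b ≤ (MulAction.stabilizer (Perm W.Wt) w).comap W.perm := by
        refine sup_le (fun r hr => ?_) (by rw [Subgroup.zpowers_le]; exact hw)
        change W.perm r • w = w
        rw [hne r hr, one_smul]
      exact hle (S.gen ▸ Subgroup.mem_top g)
    obtain ⟨x, hx⟩ := exists_ne w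
    obtain ⟨g, hg⟩ := W.transitive w x
    exact hx (hg.symm.trans (hfix g))
  set τ := W.perm t
  set τ' := W.perm (S.b * t * S.b⁻¹)
  have htR' : S.b * t * S.b⁻¹ ∈ S.R := S.normal.conj_mem _ htR _
  obtain ⟨hτ2, hτf⟩ := W.perm_four htR hk h4 ht
  have hτ'ne : τ' ≠ τ := by
    intro e
    have : W.perm S.b (τ w) = τ w := by
      calc W.perm S.b (τ w) = τ' (W.perm S.b w) := by
            simp only [τ', τ, map_mul, map_inv, Perm.mul_apply, Perm.inv_def]
            rw [show (W.perm S.b).symm (W.perm S.b w) = w from Equiv.symm_apply_apply _ _]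
        _ = τ w := by rw [hw, e]
    by_cases h : τ w = w
    · exact hτf w h
    · exact hmov _ h this
  have hτ'1 : τ' ≠ 1 := by
    intro e
    refine ht ?_
    simp only [τ', map_mul, map_inv] at e
    rwa [conj_eq_one_iff] at e
  have hRcard : Nat.card (S.R.map W.perm) = 4 := by
    have h3 : 3 ≤ Nat.card (S.R.map W.perm) := by
      let T : Finset (Perm W.Wt) := {1, τ, τ'}
      have hT : T.card = 3 := by simp [T, ht.symm, hτ'1.symm, hτ'ne.symm, τ]
      have hsub : (T : Set (Perm W.Wt)) ⊆ (S.R.map W.perm : Set (Perm W.Wt)) := by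
        intro x hx
        simp [T] at hx
        rcases hx with rfl | rfl | rfl
        · exact one_mem _
        · exact Subgroup.mem_map_of_mem _ htR
        · exact Subgroup.mem_map_of_mem _ htR'
      rw [← hT, ← Set.ncard_coe_finset]
      exact Set.ncard_le_ncard hsub (Set.toFinite _)
    have := Nat.le_of_dvd (by norm_num) h4
    interval_cases (Nat.card (S.R.map W.perm)) <;> simp_all
  -- R is transitive on the four lines
  have htrans : ∀ x y, ∃ r ∈ S.R, W.perm r x = y := by
    intro x
    have hinj : Function.Injective (fun π : S.R.map W.perm => (π : Perm W.Wt) x) := by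
      intro π π' h
      obtain ⟨r, hr, hrπ⟩ := π.2
      obtain ⟨r', hr', hrπ'⟩ := π'.2
      refine Subtype.ext ?_
      rw [← hrπ, ← hrπ']
      by_contra hne
      have hne' : W.perm (r'⁻¹ * r) ≠ 1 := by
        rw [map_mul, map_inv, Ne, inv_mul_eq_one]; exact fun e => hne e.symm
      refine (W.perm_four (S.R.mul_mem (S.R.inv_mem hr') hr) hk h4 hne').2 x ?_
      have h' : W.perm r x = W.perm r' x := by rw [hrπ, hrπ']; exact h
      rw [map_mul, map_inv, Perm.mul_apply, h', Perm.inv_def, Equiv.symm_apply_apply]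
    have hb := hinj.bijective_of_nat_card_le (by rw [hRcard, hk])
    intro y
    obtain ⟨π, hπ⟩ := hb.2 y
    obtain ⟨r, hr, hrπ⟩ := π.2
    exact ⟨r, hr, by rw [hrπ]; exact hπ⟩
  -- the squares are scalars
  have hsq : ∀ r ∈ S.R, σ (r * r) = 1 ∨ σ (r * r) = -1 := by
    intro r hr
    by_cases hp : W.perm r = 1
    · left
      rw [W.diag_sq (W.mem_diag.mpr ⟨hr, hp⟩), map_one]
    obtain ⟨h2, hf⟩ := W.perm_four hr hk h4 hp
    have hinv : ∀ x, W.perm r (W.perm r x) = x := fun x => by rw [← Perm.mul_apply, h2, Perm.one_apply]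
    have hc : ∀ x, W.coef (r * r) x = W.coef r (W.perm r x) * W.coef r x := W.coef_mul r r
    have hconst : ∀ x y, W.coef (r * r) x = W.coef (r * r) y := by
      intro x y
      by_cases hy : y = x
      · rw [hy]
      by_cases hy' : y = W.perm r x
      · rw [hy', hc, hc, hinv, mul_comm]
      have hxy : W.perm r y ≠ x := fun e => hy' (by rw [← e, hinv])
      have hxy' : W.perm r y ≠ W.perm r x := fun e => hy ((W.perm r).injective e)
      have hset : ({x, W.perm r x, y, W.perm r y} : Finset W.Wt) = Finset.univ := by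
        refine Finset.eq_univ_of_card _ ?_
        rw [← Nat.card_eq_fintype_card, hk]
        simp [(hf x).symm, Ne.symm hy, Ne.symm hy', hxy.symm, hxy'.symm, (hf y).symm]
      have hprod := W.phi_R hr
      rw [← hset] at hprod
      simp only [Finset.prod_insert, Finset.mem_insert, Finset.mem_singleton, (hf x).symm, Ne.symm hy,
        Ne.symm hy', hxy.symm, hxy'.symm, (hf y).symm, or_self, not_false_eq_true,
        Finset.prod_singleton] at hprod
      rw [hc, hc, mul_comm (W.coef r (W.perm r x)), mul_comm (W.coef r (W.perm r y))]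
      exact four_signs _ _ _ _ (W.coef_sq _ _) (W.coef_sq _ _) (W.coef_sq _ _) (W.coef_sq _ _)
        (by rw [mul_assoc, mul_assoc]; exact hprod)
    obtain ⟨x₀⟩ : Nonempty W.Wt := ⟨w⟩
    have hs : σ (r * r) = W.coef (r * r) x₀ • (1 : Module.End (ZMod 3) V) := by
      refine W.ext_on_wsp fun χ v hv => ?_
      obtain ⟨c, hc'⟩ := exists_smul_eq_of_finrank_eq_one (W.finrank_wsp χ)
        (x := (⟨W.vec χ, W.vec_mem χ⟩ : W.wsp χ.1)) (fun e => W.vec_ne _ (congrArg Subtype.val e))
        ⟨v, hv⟩
      have e : v = c • W.vec χ := (congrArg Subtype.val hc').symm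
      rw [e, map_smul, W.coef_spec, map_mul W.perm, h2, Perm.one_apply, LinearMap.smul_apply,
        Module.End.one_apply, smul_smul, smul_smul, hconst χ x₀, mul_comm]
    rcases signs_pm _ (W.coef_sq (r * r) x₀) with e | e
    · left; rw [hs, e, one_smul]
    · right; rw [hs, e, neg_one_smul]
  -- R is a two-group
  have hscal : ∀ g, σ g = 1 ∨ σ g = -1 → ∀ h, g * h = h * g := fun g hg h => S.inj (by
    rw [map_mul, map_mul]
    rcases hg with e | e <;> simp [e])
  have hscal2 : ∀ g, σ g = 1 ∨ σ g = -1 → g * g = 1 := fun g hg => S.inj (by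
    rw [map_mul, map_one]
    rcases hg with e | e <;> simp [e])
  have hp2 : IsPGroup 2 S.R := fun r => ⟨2, Subtype.ext (by
    rw [Subgroup.coe_pow, show (2 : ℕ) ^ 2 = 2 * 2 from rfl, pow_mul, pow_two, pow_two]
    exact hscal2 _ (hsq r r.2))⟩
  -- R is not abelian and its centre is scalar
  have hcent : ∀ z ∈ S.R, (∀ r ∈ S.R, z * r = r * z) → σ z = 1 ∨ σ z = -1 := by
    intro z hz hzc
    have hp : W.perm z = 1 := by
      refine Equiv.ext fun χ => Subtype.ext (funext fun a' => congrArg χ.1 (Subtype.ext ?_))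
      change z⁻¹ * a' * z = a'
      rw [mul_assoc, ← hzc _ (W.le a'.2), inv_mul_cancel_left]
    have hconst : ∀ x y, W.coef z x = W.coef z y := by
      intro x y
      obtain ⟨r, hr, hry⟩ := htrans x y
      have e := congrArg (fun g => W.coef g x) (hzc r hr)
      simp only [W.coef_mul, hp, Perm.one_apply, hry] at e
      exact (mul_left_cancel₀ (W.coef_ne r x) (by rw [← e, mul_comm])).symm
    have hs : σ z = W.coef z w • (1 : Module.End (ZMod 3) V) := by
      refine W.ext_on_wsp fun χ v hv => ?_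
      obtain ⟨c, hc'⟩ := exists_smul_eq_of_finrank_eq_one (W.finrank_wsp χ)
        (x := (⟨W.vec χ, W.vec_mem χ⟩ : W.wsp χ.1)) (fun e => W.vec_ne _ (congrArg Subtype.val e))
        ⟨v, hv⟩
      have e : v = c • W.vec χ := (congrArg Subtype.val hc').symm
      rw [e, map_smul, W.coef_spec, hp, Perm.one_apply, LinearMap.smul_apply,
        Module.End.one_apply, smul_smul, smul_smul, hconst χ w, mul_comm]
    rcases signs_pm _ (W.coef_sq z w) with e | e
    · left; rw [hs, e, one_smul]
    · right; rw [hs, e, neg_one_smul]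
  have hnab : ¬ ∀ x ∈ S.R, ∀ y ∈ S.R, x * y = y * x := fun h =>
    (hcent W.a₀ (W.le W.a₀_mem) (fun r hr => h _ (W.le W.a₀_mem) r hr)).elim W.a₀_one W.a₀_neg
  haveI : Fact (Nat.Prime 2) := ⟨Nat.prime_two⟩
  haveI : Nontrivial S.R := Subgroup.nontrivial_iff_ne_bot _ |>.mpr fun e => hnab (fun x hx y hy => by
    rw [e, Subgroup.mem_bot] at hx hy; rw [hx, hy])
  haveI : Nontrivial (Subgroup.center S.R) := hp2.center_nontrivial
  obtain ⟨⟨z', hz'⟩, hz1⟩ := exists_ne (1 : Subgroup.center S.R)
  set z : G := (z' : G)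
  have hzR : z ∈ S.R := z'.2
  have hz1' : z ≠ 1 := fun e => hz1 (Subtype.ext (Subtype.ext e))
  have hzneg : σ z = -1 := by
    refine (hcent z hzR fun r hr => ?_).resolve_left fun e => hz1' (S.inj (by rw [e, map_one]))
    exact (congrArg Subtype.val (Subgroup.mem_center_iff.mp hz' ⟨r, hr⟩)).symm
  have hscalmem : ∀ g, σ g = 1 ∨ σ g = -1 → g = 1 ∨ g = z := fun g hg => by
    rcases hg with e | e
    · exact Or.inl (S.inj (by rw [e, map_one]))
    · exact Or.inr (S.inj (by rw [e, hzneg]))
  have hzp : W.perm z = 1 := by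
    refine Equiv.ext fun χ => Subtype.ext (funext fun a' => congrArg χ.1 (Subtype.ext ?_))
    change z⁻¹ * a' * z = a'
    rw [mul_assoc, ← hscal z (Or.inr hzneg), inv_mul_cancel_left]
  -- the diagonal part has order 8
  have hA : W.A ≤ W.diag := fun a ha => W.mem_diag.mpr ⟨W.le ha, W.perm_A ha⟩
  set a := W.a₀
  set a' := S.b * a * S.b⁻¹
  have haD : a ∈ W.diag := hA W.a₀_mem
  have ha'D : a' ∈ W.diag := hA (W.normal.conj_mem _ W.a₀_mem _)
  have hzD : z ∈ W.diag := W.mem_diag.mpr ⟨hzR, hzp⟩
  have ha1 : a ≠ 1 := fun e => W.a₀_one (by change σ a = 1; rw [e, map_one])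
  have haz : a ≠ z := fun e => W.a₀_neg (by change σ a = -1; rw [e, hzneg])
  have haz1 : z * a ≠ 1 := fun e => haz (by
    rw [← inv_eq_of_mul_eq_one_right e]
    exact inv_eq_of_mul_eq_one_right (W.diag_sq hzD))
  have hmain : ∀ s : G, (σ s = 1 ∨ σ s = -1) → a' ≠ s * a := by
    intro s hs e
    have hcs : ∀ χ, W.coef a' χ = W.coef s w * W.coef a χ := by
      intro χ
      rcases hs with h | h
      · have : s = 1 := S.inj (by rw [h, map_one])
        rw [e, this, one_mul, W.coef_one, one_mul]
      · have hsz : s = z := S.inj (by rw [h, hzneg])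
        rw [e, W.coef_mul, (W.mem_diag.mp haD).2, Perm.one_apply, hsz]
        congr 1
        have : ∀ x, W.coef z x = -1 := fun x => by
          refine smul_left_injective (ZMod 3) (W.vec_ne x) ?_
          have h' := W.coef_spec z x
          rw [hzneg, hzp, Perm.one_apply, LinearMap.neg_apply, Module.End.one_apply] at h'
          change W.coef z x • W.vec x = (-1 : ZMod 3) • W.vec x
          rw [neg_one_smul]; exact h'.symm
        rw [this, this]
    have hshift : ∀ χ, W.coef a' (W.perm S.b χ) = W.coef a χ := by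
      intro χ
      have h1 : W.coef (a' * S.b) χ = W.coef (S.b * a) χ := by
        congr 1; simp [a', mul_assoc]
      rw [W.coef_mul a' S.b, W.coef_mul S.b a, (W.mem_diag.mp haD).2, Perm.one_apply, mul_comm (W.coef a' _)] at h1
      exact mul_left_cancel₀ (W.coef_ne _ _) h1
    set u := W.coef s w
    have hu : u * u = 1 := W.coef_sq s w
    have hrec : ∀ χ, W.coef a χ = u * W.coef a (W.perm S.b χ) := fun χ => by
      rw [← hshift χ, hcs]
    obtain ⟨χ, hχ⟩ := exists_ne w
    have hb : W.perm S.b χ ≠ χ := hmov χ hχ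
    set χ1 := W.perm S.b χ with hχ1
    set χ2 := W.perm S.b χ1 with hχ2
    have hb3 : W.perm S.b χ2 = χ := W.b_cube χ
    have hrec' : ∀ x, W.coef a (W.perm S.b x) = u * W.coef a x := fun x => by
      rw [hrec x, ← mul_assoc, hu, one_mul]
    obtain ⟨e1, e2⟩ := cycle_sign u (W.coef a χ) (W.coef a χ1) (W.coef a χ2) hu (W.coef_sq _ _)
      (hrec' χ) (hrec' χ1) (by have := hrec' χ2; rwa [hb3] at this)
    have hd12 : χ1 ≠ χ2 := fun h => hb ((W.perm S.b).injective h.symm)
    have hd02 : χ ≠ χ2 := fun h => hb (by rw [hχ1]; nth_rewrite 1 [h]; exact hb3)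
    have hd1w : χ1 ≠ w := fun h => hχ ((W.perm S.b).injective (h.trans hw.symm))
    have hd2w : χ2 ≠ w := fun h => hd1w ((W.perm S.b).injective (h.trans hw.symm))
    have hset : ({χ, χ1, χ2, w} : Finset W.Wt) = Finset.univ := by
      refine Finset.eq_univ_of_card _ ?_
      rw [← Nat.card_eq_fintype_card, hk]
      simp [hb.symm, hd02, hχ, hd12, hd1w, hd2w]
    have hprod := W.phi_R (W.le W.a₀_mem)
    rw [← hset] at hprod
    simp only [Finset.prod_insert, Finset.mem_insert, Finset.mem_singleton, hb.symm, hd02, hχ, hd12,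
      hd1w, hd2w, or_self, not_false_eq_true, Finset.prod_singleton] at hprod
    have hw' : W.coef a χ = W.coef a w := by
      refine fourth_sign _ _ (W.coef_sq _ _) (W.coef_sq _ _) ?_
      rw [e1, e2] at hprod
      rw [mul_assoc, mul_assoc]; exact hprod
    have hall : ∀ x, W.coef a x = W.coef a χ := by
      intro x
      have hx : x ∈ ({χ, χ1, χ2, w} : Finset W.Wt) := hset ▸ Finset.mem_univ x
      simp only [Finset.mem_insert, Finset.mem_singleton] at hx
      rcases hx with rfl | rfl | rfl | rfl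
      · rfl
      · exact e1
      · exact e2
      · exact hw'.symm
    have hs' : σ a = W.coef a χ • (1 : Module.End (ZMod 3) V) := by
      refine W.ext_on_wsp fun x v hv => ?_
      obtain ⟨c, hc'⟩ := exists_smul_eq_of_finrank_eq_one (W.finrank_wsp x)
        (x := (⟨W.vec x, W.vec_mem x⟩ : W.wsp x.1)) (fun e => W.vec_ne _ (congrArg Subtype.val e))
        ⟨v, hv⟩
      have e' : v = c • W.vec x := (congrArg Subtype.val hc').symm
      rw [e', map_smul, W.coef_spec, (W.mem_diag.mp haD).2, Perm.one_apply, LinearMap.smul_apply,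
        Module.End.one_apply, smul_smul, smul_smul, hall x, mul_comm]
    rcases signs_pm _ (W.coef_sq a χ) with e'' | e''
    · exact W.a₀_one (by change σ a = 1; rw [hs', e'', one_smul])
    · exact W.a₀_neg (by change σ a = -1; rw [hs', e'', neg_one_smul])
  have hD8 : Nat.card W.diag = 8 := by
    have hle : Nat.card W.diag ≤ 8 :=
      (W.card_diag_le (Finite.equivFinOfCardEq hk)).trans card_signs_four.le
    have h5 : 5 ≤ Nat.card W.diag := by
      have hzne : z ≠ 1 := hz1'
      have n1 : a' ≠ 1 := fun e => ha1 (by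
        change S.b * a * S.b⁻¹ = 1 at e
        exact conj_eq_one_iff.mp e)
      have n2 : a' ≠ z := fun e => haz (by
        calc a = S.b⁻¹ * a' * S.b := by simp [a', mul_assoc]
          _ = z := by rw [e, mul_assoc, hscal z (Or.inr hzneg) S.b, inv_mul_cancel_left])
      have n3 : a' ≠ a := by
        have := hmain 1 (Or.inl (map_one σ))
        rwa [one_mul] at this
      have n4 : a' ≠ z * a := hmain z (Or.inr hzneg)
      have n5 : z * a ≠ a := fun e => hzne (by simpa using e)
      have n6 : z * a ≠ z := fun e => ha1 (by simpa using e)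
      let T : Finset G := {1, z, a, z * a, a'}
      have hT : T.card = 5 := by
        simp [T, hzne.symm, ha1.symm, haz1.symm, n1.symm, haz.symm, n6.symm, n2.symm, n5.symm, n3.symm, n4.symm]
      have hsub : (T : Set G) ⊆ (W.diag : Set G) := by
        intro x hx
        simp [T] at hx
        rcases hx with rfl | rfl | rfl | rfl | rfl
        · exact W.diag.one_mem
        · exact hzD
        · exact haD
        · exact W.diag.mul_mem hzD haD
        · exact ha'D
      rw [← hT, ← Set.ncard_coe_finset]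
      exact Set.ncard_le_ncard hsub (Set.toFinite _)
    obtain ⟨n, hn⟩ := IsPGroup.iff_card.mp W.isPGroup_diag
    have : n ≤ 3 := by
      by_contra h
      have := Nat.pow_le_pow_right (show 0 < 2 by norm_num) (show 4 ≤ n by omega)
      omega
    interval_cases n <;> omega
  have hR32 : Nat.card S.R = 32 := by
    let f := W.perm.comp S.R.subtype
    have h := Subgroup.card_eq_card_quotient_mul_card_subgroup f.ker
    have hr : f.range = S.R.map W.perm := by
      rw [MonoidHom.range_comp, Subgroup.range_subtype]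
    have hk' : Nat.card f.ker = Nat.card W.diag := by
      have : f.ker = W.diag.subgroupOf S.R := by
        ext ⟨x, hx⟩
        simp [f, Subgroup.mem_subgroupOf, mem_diag, hx]
      rw [this]
      exact Nat.card_congr (Subgroup.subgroupOfEquivOfLe inf_le_left).toEquiv
    rw [h, Nat.card_congr (QuotientGroup.quotientKerEquivRange f).toEquiv, hr, hRcard, hk', hD8]
  -- extraspecial
  right
  have hzc : Nat.card (Subgroup.center S.R) = 2 := by
    have hset : (Subgroup.center S.R : Set S.R) = {1, z'} := by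
      ext y
      simp only [SetLike.mem_coe, Set.mem_insert_iff, Set.mem_singleton_iff]
      constructor
      · intro hy
        rcases hscalmem y (hcent y y.2 fun r hr =>
          (congrArg Subtype.val (Subgroup.mem_center_iff.mp hy ⟨r, hr⟩)).symm) with e | e
        · exact Or.inl (Subtype.ext e)
        · exact Or.inr (Subtype.ext e)
      · rintro (rfl | rfl)
        · exact one_mem _
        · exact hz'
    rw [← SetLike.coe_sort_coe, Nat.card_coe_set_eq, hset,
      Set.ncard_pair (fun e => hz1' (congrArg Subtype.val e.symm))]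
  have hsqc : ∀ x : S.R, x * x ∈ Subgroup.center S.R := fun x => Subgroup.mem_center_iff.mpr fun y =>
    Subtype.ext (hscal _ (hsq x x.2) y).symm
  have hcomm_le : commutator S.R ≤ Subgroup.center S.R := by
    rw [commutator_eq_closure, Subgroup.closure_le]
    rintro _ ⟨x, y, rfl⟩
    have e : ⁅x, y⁆ = (x * x) * ((x⁻¹ * y) * (x⁻¹ * y)) * (y⁻¹ * y⁻¹) := by
      rw [commutatorElement_def]; group
    rw [SetLike.mem_coe, e]
    exact mul_mem (mul_mem (hsqc x) (hsqc _)) (hsqc _)
  have hcomm_eq : commutator S.R = Subgroup.center S.R := by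
    refine Subgroup.eq_of_le_of_card_ge hcomm_le ?_
    rw [hzc]
    by_contra hlt
    have h1 : Nat.card (commutator S.R) = 1 := by
      have := Nat.card_pos (α := commutator S.R)
      omega
    have hb := Subgroup.eq_bot_of_card_eq _ h1
    refine hnab fun x hx y hy => ?_
    have : ⁅(⟨x, hx⟩ : S.R), (⟨y, hy⟩ : S.R)⁆ ∈ commutator S.R :=
      Subgroup.commutator_mem_commutator (Subgroup.mem_top _) (Subgroup.mem_top _)
    rw [hb, Subgroup.mem_bot, commutatorElement_eq_one_iff_mul_comm] at this
    exact congrArg Subtype.val this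
  refine ⟨⟨⟨hp2, le_antisymm ?_ ?_, hcomm_eq⟩, hzc⟩, hR32, W.diag, inf_le_left,
    ⟨⟨⟨fun x y => Subtype.ext ?_⟩⟩, fun x hx => by rw [pow_two]; exact W.diag_sq hx⟩, hD8⟩
  · exact Cfsg.Agent.FGS3.frattini_le_of_elementary (p := 2) hcomm_le (fun x => by rw [pow_two]; exact hsqc x)
  · rw [← hcomm_eq]; exact Cfsg.Agent.FGS3.commutator_le_frattini hp2
  · have h1 : ∀ u ∈ W.diag, u⁻¹ = u := fun u hu => inv_eq_of_mul_eq_one_right (W.diag_sq hu)
    calc (x : G) * y = ((x : G) * y)⁻¹ := (h1 _ (W.diag.mul_mem x.2 y.2)).symm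
      _ = (y : G) * x := by rw [mul_inv_rev, h1 _ x.2, h1 _ y.2]

theorem concl (W : WData S) : Concl S := by
  rcases Nat.lt_or_ge (Nat.card W.Wt) 4 with h | h
  · exact W.concl_three (by have := W.three_le; omega)
  · exact W.concl_four (le_antisymm W.card_le_four h)

end WData

end Cfsg.Agent.CubicModule
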