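/-
In the cubic setting some normal elementary abelian two-subgroup acts by non-scalars.
-/
import Cfsg.Agent.CubicModule.Monomial
import Cfsg.Agent.Core.MinimalNormal
import Cfsg.Agent.Core.Fitting
import Cfsg.Agent.Core.Cores
import Mathlib.LinearAlgebra.Trace
import Mathlib.LinearAlgebra.Determinant
import Mathlib.LinearAlgebra.Dimension.Constructions
import Mathlib.GroupTheory.Sylow

set_option autoImplicit false
set_option linter.unusedSectionVars false

namespace Cfsg.Agent.CubicModule

open Module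
open scoped commutatorElement

theorem thirteen_key : ∀ i j : Fin 5, (2 : ℕ) ^ (i : ℕ) % 13 = 2 ^ (j : ℕ) % 13 → i = j := by decide

theorem no_sqrt_neg : ∀ d : ZMod 3, d * d ≠ -1 := by decide

theorem small_primes : ∀ q : Fin 18, Nat.Prime q → (q : ℕ) ∣ 24261120 → q.val = 2 ∨ q.val = 3 ∨
    q.val = 5 ∨ q.val = 13 := by decide +kernel

theorem central_comm {H : Type*} [Group H] {e f : H} (u w : H) (he : ∀ g, e * g = g * e)
    (hf : ∀ g, f * g = g * f) : ⁅e * u, f * w⁆ = ⁅u, w⁆ := by
  have h1 : e * u * (f * w) * (e * u)⁻¹ = f * (u * w * u⁻¹) := by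
    calc e * u * (f * w) * (e * u)⁻¹ = e * (u * f * w * u⁻¹) * e⁻¹ := by group
      _ = u * f * w * u⁻¹ := by rw [he, mul_inv_cancel_right]
      _ = f * (u * w * u⁻¹) := by rw [← hf u]; group
  calc ⁅e * u, f * w⁆ = e * u * (f * w) * (e * u)⁻¹ * (f * w)⁻¹ := commutatorElement_def _ _
    _ = f * (u * w * u⁻¹ * w⁻¹) * f⁻¹ := by rw [h1]; group
    _ = ⁅u, w⁆ := by rw [hf, mul_inv_cancel_right, commutatorElement_def]

/-- A commutative two-group with at most two square roots of one is cyclic. -/
theorem isCyclic_of_two {A : Type*} [CommGroup A] [Finite A] (hA : IsPGroup 2 A)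
    (h : Nat.card {a : A // a ^ 2 = 1} ≤ 2) : IsCyclic A := by
  classical
  haveI := Fintype.ofFinite A
  have hk : ∀ k, Nat.card (powMonoidHom (2 ^ k) : A →* A).ker ≤ 2 ^ k := by
    intro k
    induction k with
    | zero =>
      refine le_of_eq (Subgroup.card_eq_one.mpr ?_)
      ext a; simp [MonoidHom.mem_ker]
    | succ k ih =>
      set H := (powMonoidHom (2 ^ (k + 1)) : A →* A).ker
      let f : H →* A := (powMonoidHom 2).comp H.subtype
      have hker : Nat.card f.ker ≤ 2 := by
        refine le_trans (Nat.card_le_card_of_injective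
          (fun x : f.ker => (⟨((x : H) : A), x.2⟩ : {a : A // a ^ 2 = 1})) ?_) h
        intro x y e
        exact Subtype.ext (Subtype.ext (congrArg Subtype.val e :))
      have hrange : Nat.card f.range ≤ 2 ^ k := by
        refine (Subgroup.card_le_of_le ?_).trans ih
        rintro _ ⟨⟨x, hx⟩, rfl⟩
        rw [MonoidHom.mem_ker, powMonoidHom_apply]
        change (x ^ 2) ^ 2 ^ k = 1
        rw [← pow_mul, ← pow_succ']
        exact hx
      rw [Subgroup.card_eq_card_quotient_mul_card_subgroup f.ker,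
        Nat.card_congr (QuotientGroup.quotientKerEquivRange f).toEquiv, pow_succ]
      exact Nat.mul_le_mul hrange hker
  obtain ⟨m, hm⟩ := IsPGroup.iff_card.mp hA
  refine isCyclic_of_card_pow_eq_one_le fun n hn => ?_
  obtain ⟨j, hj, hgcd⟩ := (Nat.dvd_prime_pow Nat.prime_two).mp
    ((Nat.gcd_dvd_right n (Nat.card A)).trans hm.dvd)
  have hsub : (Finset.univ.filter fun a : A => a ^ n = 1) ⊆
      Finset.univ.filter fun a : A => a ^ 2 ^ j = 1 := by
    intro a ha
    simp only [Finset.mem_filter, Finset.mem_univ, true_and] at ha ⊢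
    rw [← hgcd]
    exact pow_gcd_eq_one.mpr ⟨ha, pow_card_eq_one'⟩
  refine (Finset.card_le_card hsub).trans ?_
  have h2j : 2 ^ j ≤ n := hgcd ▸ Nat.gcd_le_left _ hn
  refine le_trans ?_ ((hk j).trans h2j)
  rw [Nat.card_eq_fintype_card, ← Fintype.card_subtype]
  exact (Fintype.card_congr (Equiv.subtypeEquivRight fun a => by simp [MonoidHom.mem_ker])).le

/-- `G → Aut` kills an element whose order is prime to the order of the automorphism group. -/
theorem hom_eq_one {H K : Type*} [Group H] [Group K] (f : H →* K) {x : H}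
    (hx : x ^ 3 = 1) (hK : (3 : ℕ).Coprime (Nat.card K)) : f x = 1 := by
  have h1 : orderOf (f x) ∣ 3 := orderOf_dvd_of_pow_eq_one (by rw [← map_pow, hx, map_one])
  exact orderOf_eq_one_iff.mp (Nat.eq_one_of_dvd_coprimes hK h1 (orderOf_dvd_natCard _))

variable {G : Type*} [Group G] [Finite G] {V : Type*} [AddCommGroup V] [Module (ZMod 3) V] [Finite V]
variable {σ : Representation (ZMod 3) G V} (S : Setup σ)
include S

/-- The elements acting as scalars. -/
def Setup.scalars (_S : Setup σ) : Subgroup G where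
  carrier := {g | σ g = 1 ∨ σ g = -1}
  one_mem' := Or.inl (map_one σ)
  mul_mem' := by
    rintro x y (hx | hx) (hy | hy) <;> simp only [Set.mem_setOf_eq, map_mul, hx, hy] <;> simp
  inv_mem' := by
    rintro x (hx | hx)
    · left
      calc σ x⁻¹ = σ x⁻¹ * σ x := by rw [hx, mul_one]
        _ = 1 := by rw [← map_mul, inv_mul_cancel, map_one]
    · right
      calc σ x⁻¹ = -(σ x⁻¹ * σ x) := by rw [hx, mul_neg, mul_one, neg_neg]
        _ = -1 := by rw [← map_mul, inv_mul_cancel, map_one]

theorem Setup.mem_scalars {g : G} : g ∈ S.scalars ↔ σ g = 1 ∨ σ g = -1 := Iff.rfl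

theorem Setup.scalars_central {s : G} (hs : s ∈ S.scalars) (g : G) : s * g = g * s := S.inj (by
  rw [map_mul, map_mul]
  rcases hs with e | e <;> simp [e])

theorem Setup.scalars_sq {s : G} (hs : s ∈ S.scalars) : s * s = 1 := S.inj (by
  rw [map_mul, map_one]
  rcases hs with e | e <;> simp [e])

instance : S.scalars.Normal :=
  ⟨fun s hs g => by rwa [← S.scalars_central hs g, mul_inv_cancel_right]⟩

theorem Setup.card_scalars : Nat.card S.scalars ≤ 2 := by
  classical
  let f : S.scalars → ({1, -1} : Finset (Module.End (ZMod 3) V)) := fun s =>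
    ⟨σ (s : G), by rcases s.2 with e | e <;> simp [e]⟩
  refine (Nat.card_le_card_of_injective f fun a b h =>
    Subtype.ext (S.inj (congrArg Subtype.val h))).trans ?_
  rw [Nat.card_eq_fintype_card, Fintype.card_coe]
  exact Finset.card_le_two

theorem Setup.q_not_scalar : S.q 0 ∉ S.scalars := by
  obtain ⟨v, hv, hv0⟩ := S.exists_gen 0
  obtain ⟨w, hw, hw0⟩ := S.exists_gen 1
  rintro (e | e)
  · have h : σ (S.q 0) w = -w := by
      have := S.N_third hw
      rwa [show ((1 : Fin 3) + 2) = 0 from by decide] at this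
    rw [e] at h
    exact hw0 (eq_zero_of_neg_eq h.symm)
  · have h := (S.mem_N.mp hv).1
    rw [e] at h
    exact hv0 (eq_zero_of_neg_eq h)

theorem Setup.three_le_finrank : 3 ≤ finrank (ZMod 3) V := by
  have hd : Disjoint (S.W 2) (S.N 2) := by
    rw [Submodule.disjoint_def]
    intro v h1 h2
    exact eq_zero_of_neg_eq ((S.mem_W.mp h1).symm.trans (S.mem_N.mp h2).1)
  have hW : finrank (ZMod 3) (S.W 2) = 2 := by
    have h := Submodule.finrank_sup_add_finrank_inf_eq (S.N (2 + 1)) (S.N (2 + 1 + 1))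
    rw [(S.disjoint_succ (2 + 1)).eq_bot, finrank_bot, S.finrank_N, S.finrank_N, add_zero] at h
    rw [QData.W, ← f11 2]
    exact h
  have h := Submodule.finrank_sup_add_finrank_inf_eq (S.W 2) (S.N 2)
  rw [hd.eq_bot, finrank_bot, hW, S.finrank_N, add_zero] at h
  have := Submodule.finrank_le (S.W 2 ⊔ S.N 2)
  omega

/-- The classification of `R`. -/
theorem Setup.concl : Concl S := by
  classical
  have hb3 : S.b * S.b * S.b = 1 := by rw [← pow_two, ← pow_succ, S.b3]
  by_cases hW : Nonempty (WData S)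
  · exact hW.some.concl
  exfalso
  haveI := S.normal
  haveI := S.solv
  have hNW : ∀ A : Subgroup G, A.Normal → A ≤ S.R → (∀ a ∈ A, a * a = 1) → A ≤ S.scalars := by
    intro A h1 h2 h3 a ha
    by_contra h
    exact hW ⟨⟨A, h1, h2, h3, a, ha, fun e => h (Or.inl e), fun e => h (Or.inr e)⟩⟩
  haveI : Fact (Nat.Prime 2) := ⟨Nat.prime_two⟩
  -- abelian normal two-subgroups are scalar
  have hab : ∀ A : Subgroup G, A.Normal → A ≤ S.R → IsPGroup 2 A →
      (∀ x ∈ A, ∀ y ∈ A, x * y = y * x) → A ≤ S.scalars := by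
    intro A hAn hAR hAp hAc
    let Ω : Subgroup G :=
      { carrier := {a | a ∈ A ∧ a * a = 1}
        one_mem' := ⟨A.one_mem, one_mul 1⟩
        mul_mem' := fun {a b} ha hb => ⟨A.mul_mem ha.1 hb.1, by
          rw [mul_assoc, ← mul_assoc b, ← hAc a ha.1 b hb.1, mul_assoc a b b, hb.2, mul_one, ha.2]⟩
        inv_mem' := fun {a} ha => ⟨A.inv_mem ha.1, by rw [← mul_inv_rev, ha.2, inv_one]⟩ }
    have hΩn : Ω.Normal := ⟨fun a ha g => ⟨hAn.conj_mem a ha.1 g, by
      rw [show g * a * g⁻¹ * (g * a * g⁻¹) = g * (a * a) * g⁻¹ by group, ha.2]; group⟩⟩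
    have hΩ : Ω ≤ S.scalars := hNW Ω hΩn (fun a ha => hAR ha.1) (fun a ha => ha.2)
    letI : CommGroup A :=
      { (inferInstance : Group A) with mul_comm := fun x y => Subtype.ext (hAc x x.2 y y.2) }
    haveI : IsCyclic A := by
      refine isCyclic_of_two hAp (le_trans (Nat.card_le_card_of_injective
        (fun a : {a : A // a ^ 2 = 1} => (⟨((a : A) : G), hΩ ⟨(a : A).2, by
          have := congrArg Subtype.val a.2
          rwa [Subgroup.coe_pow, pow_two] at this⟩⟩ : S.scalars)) ?_) S.card_scalars)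
      intro a a' h
      exact Subtype.ext (Subtype.ext (congrArg Subtype.val h :))
    exact fun a ha => S.cyclic_scalar hAR ha
  -- O_q(R) = 1 for odd q
  have hodd : ∀ q : ℕ, q.Prime → q ≠ 2 → pCore q S.R = ⊥ := by
    intro q hq hq2
    haveI := Fact.mk hq
    by_contra hne
    let P : Subgroup G := (pCore q S.R).map S.R.subtype
    haveI hPn : P.Normal := Core.normal_map_subtype_of_characteristic _
    haveI : Nontrivial P := (Subgroup.nontrivial_iff_ne_bot _).mpr fun e => hne
      ((Subgroup.map_eq_bot_iff_of_injective _ S.R.subtype_injective).mp e)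
    have hPp : IsPGroup q P := (Core.isPGroup_pCore q S.R).map _
    let Z : Subgroup G := (Subgroup.center P).map P.subtype
    haveI : Z.Normal := Core.normal_map_subtype_of_characteristic _
    have hZ : Z = ⊥ := by
      refine S.abelian_odd_eq_bot ((Subgroup.map_subtype_le _).trans (Subgroup.map_subtype_le _))
        ?_ ?_
      · rintro _ ⟨x, hx, rfl⟩ _ ⟨y, hy, rfl⟩
        exact congrArg Subtype.val (Subgroup.mem_center_iff.mp hy x)
      · intro h2
        have hZp : IsPGroup q Z := (hPp.to_subgroup _).map _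
        obtain ⟨k, hk⟩ := IsPGroup.iff_card.mp hZp
        rw [hk] at h2
        exact hq2 ((Nat.prime_dvd_prime_iff_eq Nat.prime_two hq).mp (Nat.prime_two.dvd_of_dvd_pow h2)).symm
    haveI := hPp.center_nontrivial
    exact (Subgroup.nontrivial_iff_ne_bot _).mp inferInstance
      ((Subgroup.map_eq_bot_iff_of_injective _ P.subtype_injective).mp hZ)
  -- the two-core
  have hF : fittingSubgroup S.R ≤ pCore 2 S.R := by
    rw [Core.fittingSubgroup_eq_iSup]
    refine iSup_le fun q => ?_
    by_cases h2 : (q : ℕ) = 2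
    · rw [h2]
    · rw [hodd q q.2 h2]; exact bot_le
  set X : Subgroup G := (pCore 2 S.R).map S.R.subtype with hX
  haveI hXn : X.Normal := Core.normal_map_subtype_of_characteristic _
  have hXR : X ≤ S.R := Subgroup.map_subtype_le _
  have hXp : IsPGroup 2 X := (Core.isPGroup_pCore 2 S.R).map _
  have hXtop : ∀ N : Subgroup G, N.Normal → N ≤ S.R → IsPGroup 2 N → N ≤ X := by
    intro N hN hNR hNp g hg
    haveI := hN
    exact ⟨⟨g, hNR hg⟩, Core.le_pCore (N := N.subgroupOf S.R) inferInstance
      (hNp.of_equiv (Subgroup.subgroupOfEquivOfLe hNR).symm) hg, rfl⟩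
  have hC : ∀ r ∈ S.R, (∀ x ∈ X, r * x = x * r) → r ∈ X := by
    intro r hr hc
    refine ⟨⟨r, hr⟩, hF (Core.centralizer_fittingSubgroup_le ?_), rfl⟩
    exact fun y hy => Subtype.ext (hc _ ⟨y, hF hy, rfl⟩).symm
  have hZ : ∀ z ∈ X, (∀ x ∈ X, z * x = x * z) → z ∈ S.scalars := by
    intro z hz hc
    haveI : ((Subgroup.center X).map X.subtype).Normal := Core.normal_map_subtype_of_characteristic _
    refine hab _ inferInstance ((Subgroup.map_subtype_le _).trans hXR) ((hXp.to_subgroup _).map _) ?_
      ⟨⟨z, hz⟩, Subgroup.mem_center_iff.mpr fun x => Subtype.ext (hc x x.2).symm, rfl⟩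
    rintro _ ⟨x, hx, rfl⟩ _ ⟨y, hy, rfl⟩
    exact congrArg Subtype.val (Subgroup.mem_center_iff.mp hy x)
  -- class two
  let π := QuotientGroup.mk' S.scalars
  have hcls : ∀ x ∈ X, ∀ y ∈ X, ⁅x, y⁆ ∈ S.scalars := by
    by_contra hne
    push Not at hne
    obtain ⟨x, hx, y, hy, hxy⟩ := hne
    set D : Subgroup G := ⁅X, X⁆
    set N : Subgroup (G ⧸ S.scalars) := D.map π
    have hπ : Function.Surjective π := QuotientGroup.mk'_surjective _
    haveI : N.Normal := Subgroup.Normal.map inferInstance π hπ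
    have hDX : D ≤ X := Subgroup.commutator_le_self X
    have hNp : IsPGroup 2 N := (hXp.to_le hDX).map _
    haveI : Nontrivial N := (Subgroup.nontrivial_iff_ne_bot _).mpr fun e => hxy (by
      have : π ⁅x, y⁆ ∈ N := Subgroup.mem_map_of_mem _ (Subgroup.commutator_mem_commutator hx hy)
      rw [e, Subgroup.mem_bot] at this
      exact (QuotientGroup.eq_one_iff _).mp this)
    letI : MulAction X N := MulAction.compHom N ((MulAut.conjNormal (H := N)).comp (π.comp X.subtype))
    have hfix : (1 : N) ∈ MulAction.fixedPoints X N := fun g => map_one (MulAut.conjNormal (H := N) (π (g : G)))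
    obtain ⟨k, hk⟩ := IsPGroup.iff_card.mp hNp
    have hdvd : 2 ∣ Nat.card N := by
      rw [hk]
      refine dvd_pow_self 2 fun h0 => ?_
      rw [h0, pow_zero] at hk
      exact absurd hk (Finite.one_lt_card).ne'
    obtain ⟨⟨c, hc⟩, hcfix, hc1⟩ :=
      hXp.exists_fixed_point_of_prime_dvd_card_of_fixed_point N hdvd hfix
    obtain ⟨a, ha, rfl⟩ := hc
    let A : Subgroup G := D ⊓ (Subgroup.centralizer (X.map π : Set (G ⧸ S.scalars))).comap π
    haveI : (X.map π).Normal := Subgroup.Normal.map inferInstance π hπ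
    haveI : A.Normal := inferInstance
    have haA : a ∈ A := by
      refine ⟨ha, ?_⟩
      rintro _ ⟨g, hg, rfl⟩
      have h := congrArg Subtype.val (hcfix (⟨g, hg⟩ : X))
      exact mul_inv_eq_iff_eq_mul.mp h
    have hAc : ∀ t ∈ A, ∀ s ∈ D, t * s = s * t := by
      intro t ht s hs
      have hle : D ≤ Subgroup.centralizer ({t} : Set G) := by
        rw [Subgroup.commutator_le]
        intro u hu w hw
        have key : ∀ v ∈ X, ∃ e ∈ S.scalars, t * v * t⁻¹ = e * v := fun v hv => by
          refine ⟨t * v * t⁻¹ * v⁻¹, (QuotientGroup.eq_one_iff _).mp ?_, by group⟩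
          have h := ht.2 (π v) (Subgroup.mem_map_of_mem _ hv)
          change π (t * v * t⁻¹ * v⁻¹) = 1
          rw [map_mul, map_mul, map_mul, ← h]
          simp
        obtain ⟨e, he, heu⟩ := key u hu
        obtain ⟨f, hf, hfw⟩ := key w hw
        rw [Subgroup.mem_centralizer_singleton_iff]
        have hh : t * ⁅u, w⁆ * t⁻¹ = ⁅u, w⁆ := by
          rw [show t * ⁅u, w⁆ * t⁻¹ = ⁅t * u * t⁻¹, t * w * t⁻¹⁆ by
            simp only [commutatorElement_def]; group, heu, hfw]
          exact central_comm u w (fun g => S.scalars_central he g) (fun g => S.scalars_central hf g)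
        exact (mul_inv_eq_iff_eq_mul.mp hh).symm
      exact (Subgroup.mem_centralizer_singleton_iff.mp (hle hs)).symm
    have := hab A inferInstance (inf_le_left.trans (hDX.trans hXR))
      (hXp.to_le (inf_le_left.trans hDX)) (fun s hs t ht => hAc s hs t ht.1) haA
    exact hc1 (Subtype.ext ((QuotientGroup.eq_one_iff a).mpr this).symm)
  have hconj : ∀ x ∈ X, ∀ y ∈ X, ∃ s ∈ S.scalars, x * y * x⁻¹ = s * y := fun x hx y hy =>
    ⟨⁅x, y⁆, hcls x hx y hy, by rw [commutatorElement_def]; group⟩
  have hsq : ∀ x ∈ X, x * x ∈ S.scalars := by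
    intro x hx
    refine hZ _ (X.mul_mem hx hx) fun y hy => ?_
    obtain ⟨s, hs, e⟩ := hconj x hx y hy
    calc x * x * y = x * (x * y * x⁻¹) * x := by group
      _ = x * (s * y) * x := by rw [e]
      _ = s * (x * y * x⁻¹) * (x * x) := by
          rw [← mul_assoc x s, ← S.scalars_central hs x]; group
      _ = s * (s * y) * (x * x) := by rw [e]
      _ = y * (x * x) := by rw [← mul_assoc s s, S.scalars_sq hs, one_mul]
  have hXnab : ¬ ∀ x ∈ X, ∀ y ∈ X, x * y = y * x := fun h => S.q_not_scalar (by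
    have hXs : ∀ x ∈ X, x ∈ S.scalars := fun x hx => hZ x hx (h x hx)
    exact hXs _ (hC _ (S.q_mem 0) fun x hx => (S.scalars_central (hXs x hx) _).symm))
  obtain ⟨z, hzX, hz⟩ : ∃ z ∈ X, σ z = -1 := by
    push Not at hXnab
    obtain ⟨x, hx, y, hy, hxy⟩ := hXnab
    refine ⟨⁅x, y⁆, Subgroup.commutator_le_self X (Subgroup.commutator_mem_commutator hx hy),
      (hcls x hx y hy).resolve_left fun e => hxy ?_⟩
    exact commutatorElement_eq_one_iff_mul_comm.mp (S.inj (by rw [e, map_one]))
  -- a displacement that is a square root of -1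
  set δ : G → G := fun x => x⁻¹ * (S.b * x * S.b⁻¹) with hδ
  have hbX : ∀ x ∈ X, S.b * x * S.b⁻¹ ∈ X := fun x hx => hXn.conj_mem x hx _
  have hδX : ∀ x ∈ X, δ x ∈ X := fun x hx => X.mul_mem (X.inv_mem hx) (hbX x hx)
  obtain ⟨x₀, hx₀, hu⟩ : ∃ x ∈ X, δ x * δ x ≠ 1 := by
    by_contra hall
    push Not at hall
    have hmul : ∀ x ∈ X, ∀ y ∈ X, ∃ s ∈ S.scalars, δ (x * y) = s * (δ x * δ y) := by
      intro x hx y hy
      obtain ⟨s, hs, e⟩ := hconj y⁻¹ (X.inv_mem hy) (δ x) (hδX x hx)
      refine ⟨s, hs, ?_⟩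
      calc δ (x * y) = (y⁻¹ * δ x * y⁻¹⁻¹) * δ y := by simp only [hδ]; group
        _ = _ := by rw [e, mul_assoc]
    have hcomm : ∀ x ∈ X, ∀ y ∈ X, δ x * δ y = δ y * δ x := by
      intro x hx y hy
      obtain ⟨s, hs, e⟩ := hmul x hx y hy
      have h1 := hall (x * y) (X.mul_mem hx hy)
      rw [e, show s * (δ x * δ y) * (s * (δ x * δ y)) = s * ((δ x * δ y) * s) * (δ x * δ y) by group,
        ← S.scalars_central hs, ← mul_assoc s s, S.scalars_sq hs, one_mul] at h1
      have i1 : (δ x)⁻¹ = δ x := inv_eq_of_mul_eq_one_right (hall x hx)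
      have i2 : (δ y)⁻¹ = δ y := inv_eq_of_mul_eq_one_right (hall y hy)
      calc δ x * δ y = (δ x * δ y)⁻¹ := (inv_eq_of_mul_eq_one_right h1).symm
        _ = δ y * δ x := by rw [mul_inv_rev, i1, i2]
    have hfixc : ∀ c ∈ X, (∃ s ∈ S.scalars, S.b * c * S.b⁻¹ = s * c) → ∀ x ∈ X,
        c * δ x = δ x * c := by
      rintro c hc ⟨s, hs, hbc⟩ x hx
      obtain ⟨e, he, hcx⟩ := hconj c hc x hx
      have h1 : c * (S.b * x * S.b⁻¹) * c⁻¹ = e * (S.b * x * S.b⁻¹) := by
        have h2 : (s * c) * (S.b * x * S.b⁻¹) * (s * c)⁻¹ = S.b * (c * x * c⁻¹) * S.b⁻¹ := by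
          rw [← hbc]; group
        rw [hcx, show (s * c) * (S.b * x * S.b⁻¹) * (s * c)⁻¹ =
          s * (c * (S.b * x * S.b⁻¹) * c⁻¹) * s⁻¹ by group, S.scalars_central hs,
          mul_inv_cancel_right, show S.b * (e * x) * S.b⁻¹ = (S.b * e) * x * S.b⁻¹ by group,
          ← S.scalars_central he] at h2
        rw [h2]; group
      have h3 : c * δ x * c⁻¹ = δ x := by
        calc c * δ x * c⁻¹ = (c * x * c⁻¹)⁻¹ * (c * (S.b * x * S.b⁻¹) * c⁻¹) := by
              simp only [hδ]; group
          _ = δ x := by rw [hcx, h1]; simp only [hδ]; group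
      exact mul_inv_eq_iff_eq_mul.mp h3
    have hcentral : ∀ x ∈ X, δ x ∈ S.scalars := by
      intro x hx
      refine hZ _ (hδX x hx) fun y hy => ?_
      set y1 := S.b * y * S.b⁻¹ with hy1
      set y2 := S.b * y1 * S.b⁻¹ with hy2
      have hy1X : y1 ∈ X := hbX y hy
      have hy2X : y2 ∈ X := hbX y1 hy1X
      have hy3 : S.b * y2 * S.b⁻¹ = y := by
        rw [hy2, hy1, show S.b * (S.b * (S.b * y * S.b⁻¹) * S.b⁻¹) * S.b⁻¹ =
          (S.b * S.b * S.b) * y * (S.b * S.b * S.b)⁻¹ by group, hb3]; group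
      set N := y * y1 * y2 with hN
      have hNX : N ∈ X := X.mul_mem (X.mul_mem hy hy1X) hy2X
      have hNfix : ∃ s ∈ S.scalars, S.b * N * S.b⁻¹ = s * N := by
        obtain ⟨s, hs, e⟩ := hconj y⁻¹ (X.inv_mem hy) N hNX
        refine ⟨s, hs, ?_⟩
        calc S.b * N * S.b⁻¹ = y1 * y2 * (S.b * y2 * S.b⁻¹) := by simp only [hN, hy2, hy1]; group
          _ = y⁻¹ * N * y⁻¹⁻¹ := by rw [hy3, hN]; group
          _ = _ := e
      have hcN := hfixc N hNX hNfix x hx
      -- `y` lies in `N · δ(X) · scalars`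
      obtain ⟨t, ht, hyt⟩ := hconj (δ y) (hδX y hy) y hy
      have hNy : N = (y * y) * t * (y * (δ y1)) := by
        have e1 : y1 = y * δ y := by simp only [hδ, hy1]; group
        have e2 : y2 = y1 * δ y1 := by simp only [hδ, hy2]; group
        calc N = (y * y) * (δ y * y * (δ y)⁻¹) * (δ y * δ y) * δ y1 := by
              rw [hN, e2]; nth_rewrite 1 2 [e1]; group
          _ = _ := by rw [hyt, hall y hy]; group
      have hcy : δ x * (y * δ y1) = (y * δ y1) * δ x := by
        have hs : (y * y) * t ∈ S.scalars := S.scalars.mul_mem (hsq y hy) ht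
        rw [hNy] at hcN
        refine mul_left_cancel (a := (y * y) * t) ?_
        rw [← mul_assoc _ (δ x), S.scalars_central hs (δ x), mul_assoc, ← hcN]
        group
      have hc1 := hcomm x hx y1 hy1X
      refine mul_right_cancel (b := δ y1) ?_
      rw [mul_assoc, hcy, mul_assoc, ← hc1, ← mul_assoc]
    -- so `b` centralizes `X`
    have hb : ∀ x ∈ X, S.b * x * S.b⁻¹ = x := by
      intro x hx
      have e : S.b * x * S.b⁻¹ = x * δ x := by simp only [hδ]; group
      set s := δ x with hs'
      have hs : s ∈ S.scalars := hcentral x hx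
      have hsb : S.b * s * S.b⁻¹ = s := by rw [← S.scalars_central hs, mul_inv_cancel_right]
      have c : ∀ p r : G, S.b * (p * r) * S.b⁻¹ = (S.b * p * S.b⁻¹) * (S.b * r * S.b⁻¹) :=
        fun p r => by group
      have h3 : x = x * s * s * s := by
        calc x = S.b * (S.b * (S.b * x * S.b⁻¹) * S.b⁻¹) * S.b⁻¹ := by
              rw [show S.b * (S.b * (S.b * x * S.b⁻¹) * S.b⁻¹) * S.b⁻¹ =
                (S.b * S.b * S.b) * x * (S.b * S.b * S.b)⁻¹ by group, hb3, one_mul, inv_one, mul_one]
          _ = x * s * s * s := by rw [e, c x s, e, hsb, c (x * s) s, c x s, e, hsb]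
      rw [mul_assoc (x * s), S.scalars_sq hs, mul_one] at h3
      rw [e, ← h3]
    let K : Subgroup G := Subgroup.centralizer (X : Set G)
    have hbK : Subgroup.zpowers S.b ≤ K := by
      rw [Subgroup.zpowers_le]
      exact fun x hx => (mul_inv_eq_iff_eq_mul.mp (hb x hx)).symm
    have hRK : S.R ≤ K := by
      rw [S.comm, Subgroup.commutator_le]
      intro r _ y hy
      have hn : r * y * r⁻¹ ∈ K := (inferInstance : K.Normal).conj_mem y (hbK hy) r
      rw [commutatorElement_def]
      exact K.mul_mem hn (K.inv_mem (hbK hy))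
    exact hXnab fun x hx y hy => ((hRK (hXR hx)) y hy).symm
  set u := δ x₀
  have huX : u ∈ X := hδX x₀ hx₀
  have hu2 : σ (u * u) = -1 :=
    (hsq u huX).resolve_left fun e => hu (S.inj (by rw [e, map_one]))
  -- the dimension is four
  have hn4 : finrank (ZMod 3) V = 4 := by
    have hle : finrank (ZMod 3) V ≤ 4 := by
      have hsurj : LinearMap.range (σ u - 1) = ⊤ := by
        rw [LinearMap.range_eq_top]
        intro v
        refine ⟨σ u v + v, ?_⟩
        have e : σ u (σ u v) = -v := by rw [← mul_apply', hu2]; rfl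
        rw [LinearMap.sub_apply, Module.End.one_apply, map_add, e]
        have h3 := add3 v
        rw [show -v + σ u v - (σ u v + v) = -(v + v) by abel]
        exact (eq_neg_of_add_eq_zero_left (by rw [← add_assoc]; exact h3)).symm
      have hdec : LinearMap.range (σ u - 1) ≤
          (LinearMap.range (σ S.b - 1)).map (σ x₀⁻¹) ⊔
          (LinearMap.range (σ S.b - 1)).map (σ (x₀⁻¹ * S.b * x₀ * S.b⁻¹)) := by
        rintro _ ⟨v, rfl⟩
        have e : (σ u - 1) v = σ x₀⁻¹ ((σ S.b - 1) (σ x₀ v)) +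
            σ (x₀⁻¹ * S.b * x₀ * S.b⁻¹) ((σ S.b - 1) (-v)) := by
          simp only [LinearMap.sub_apply, Module.End.one_apply, map_sub, map_neg, u, hδ,
            ← mul_apply']
          simp only [mul_assoc, inv_mul_cancel, inv_mul_cancel_left, mul_one, one_apply']
          abel
        rw [e]
        exact add_mem (Submodule.mem_sup_left (Submodule.mem_map_of_mem ⟨_, rfl⟩))
          (Submodule.mem_sup_right (Submodule.mem_map_of_mem ⟨_, rfl⟩))
      rw [hsurj, top_le_iff] at hdec
      rw [← finrank_top, ← hdec]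
      refine (Submodule.finrank_add_le_finrank_add_finrank _ _).trans ?_
      have h1 := Submodule.finrank_map_le (σ x₀⁻¹) (LinearMap.range (σ S.b - 1))
      have h2 := Submodule.finrank_map_le (σ (x₀⁻¹ * S.b * x₀ * S.b⁻¹)) (LinearMap.range (σ S.b - 1))
      have := S.rank
      omega
    have h3 := S.three_le_finrank
    by_contra h4
    have hn : finrank (ZMod 3) V = 3 := by omega
    have hd := congrArg LinearMap.det hu2
    rw [map_mul σ, map_mul LinearMap.det, show (-1 : Module.End (ZMod 3) V) = (-1 : ZMod 3) • 1 by simp,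
      LinearMap.det_smul, hn, map_one, mul_one] at hd
    exact no_sqrt_neg _ (hd.trans (by decide))
  -- |X̄| ≤ 16
  set Xb : Subgroup (G ⧸ S.scalars) := X.map π
  haveI : Xb.Normal := Subgroup.Normal.map inferInstance π (QuotientGroup.mk'_surjective _)
  obtain ⟨k, hk⟩ := IsPGroup.iff_card.mp (hXp.map π)
  have hXb : Nat.card Xb ≤ 16 := by
    have hrep : ∀ c : Xb, ∃ g ∈ X, π g = (c : G ⧸ S.scalars) := fun c => c.2
    choose rep hrepX hrep using hrep
    haveI := Fintype.ofFinite Xb
    have htr : ∀ g ∈ X, g ∉ S.scalars → LinearMap.trace (ZMod 3) V (σ g) = 0 := by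
      intro g hg hgs
      obtain ⟨y, hy, hgy⟩ : ∃ y ∈ X, g * y ≠ y * g := by
        by_contra h
        push Not at h
        exact hgs (hZ g hg h)
      have hm : σ ⁅y, g⁆ = -1 := (hcls y hy g hg).resolve_left fun e => hgy
        (commutatorElement_eq_one_iff_mul_comm.mp (S.inj (by rw [e, map_one]))).symm
      have e1 : σ y * σ g * σ y⁻¹ = -σ g := by
        rw [← map_mul, ← map_mul, show y * g * y⁻¹ = ⁅y, g⁆ * g by
          rw [commutatorElement_def]; group, map_mul, hm, neg_one_mul]
      have e2 := congrArg (LinearMap.trace (ZMod 3) V) e1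
      rw [LinearMap.trace_mul_cycle, ← map_mul σ y⁻¹, inv_mul_cancel, map_one, one_mul, map_neg] at e2
      have key : ∀ t : ZMod 3, t = -t → t = 0 := by decide
      exact key _ e2
    have hli : LinearIndependent (ZMod 3) fun c : Xb => σ (rep c) := by
      rw [Fintype.linearIndependent_iff]
      intro f hf c
      have h := congrArg (fun T => LinearMap.trace (ZMod 3) V (T * σ (rep c)⁻¹)) hf
      simp only [Finset.sum_mul, smul_mul_assoc, map_sum, map_smul, zero_mul, map_zero,
        ← map_mul σ] at h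
      rw [Finset.sum_eq_single c] at h
      · rw [mul_inv_cancel, map_one, LinearMap.trace_one, hn4, smul_eq_mul] at h
        have key : ∀ t : ZMod 3, t * ((4 : ℕ) : ZMod 3) = 0 → t = 0 := by decide
        exact key _ h
      · intro d _ hd
        rw [htr _ (X.mul_mem (hrepX d) (X.inv_mem (hrepX c))) (fun hs => hd (Subtype.ext ?_)),
          smul_zero]
        have := (QuotientGroup.eq_one_iff _).mpr hs
        change π (rep d * (rep c)⁻¹) = 1 at this
        rw [map_mul, map_inv, mul_inv_eq_one, hrep, hrep] at this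
        exact this
      · simp
    have := hli.fintype_card_le_finrank
    rw [← Nat.card_eq_fintype_card, Module.finrank_linearMap, hn4] at this
    exact this
  have hk4 : k ≤ 4 := by
    by_contra h
    have := Nat.pow_le_pow_right (show 0 < 2 by norm_num) (show 5 ≤ k by omega)
    rw [hk] at hXb
    omega
  -- R acts faithfully modulo X
  have hfaith : ∀ r ∈ S.R, (∀ x ∈ X, ⁅r, x⁆ ∈ S.scalars) → r * r ∈ X := by
    intro r hr h
    refine hC _ (S.R.mul_mem hr hr) fun x hx => ?_
    have hs := h x hx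
    calc r * r * x = r * (⁅r, x⁆ * x) * r := by rw [commutatorElement_def]; group
      _ = ⁅r, x⁆ * (r * x) * r := by rw [← mul_assoc r, ← S.scalars_central hs r]; group
      _ = (⁅r, x⁆ * ⁅r, x⁆) * x * (r * r) := by rw [commutatorElement_def]; group
      _ = x * (r * r) := by rw [S.scalars_sq hs, one_mul]
  have hcardG : Nat.card S.R ∣ 24261120 := by
    let B := Module.finBasisOfFinrankEq (ZMod 3) V hn4
    let e := Units.mapEquiv (LinearMap.toMatrixAlgEquiv B).toMulEquiv
    let f : S.R →* (Module.End (ZMod 3) V)ˣ := (MonoidHom.toHomUnits (σ.comp S.R.subtype))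
    have hf : Function.Injective f := by
      intro r r' h
      exact Subtype.ext (S.inj (congrArg Units.val h))
    refine (Subgroup.card_dvd_of_injective f hf).trans ?_
    rw [Nat.card_congr e.toEquiv]
    have := Matrix.card_GL_field (𝔽 := ZMod 3) 4
    rw [ZMod.card] at this
    change Nat.card (GL (Fin 4) (ZMod 3)) ∣ _
    rw [this]
    decide
  have hprimes : ∀ q : ℕ, q.Prime → q ∣ Nat.card S.R → q = 2 ∨ q = 5 := by
    intro q hq hdvd
    by_contra hne
    push Not at hne
    haveI := Fact.mk hq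
    obtain ⟨⟨r, hr⟩, hord⟩ := exists_prime_orderOf_dvd_card' q hdvd
    rw [Subgroup.orderOf_mk] at hord
    letI : MulAction (Subgroup.zpowers r) Xb :=
      MulAction.compHom Xb ((MulAut.conjNormal (H := Xb)).comp (π.comp (Subgroup.zpowers r).subtype))
    have hpg : IsPGroup q (Subgroup.zpowers r) :=
      IsPGroup.of_card (n := 1) (by rw [Nat.card_zpowers, hord, pow_one])
    have hnfix : ¬ ∀ x ∈ X, ⁅r, x⁆ ∈ S.scalars := by
      intro h
      have h2 := hfaith r hr h
      obtain ⟨j, hj⟩ := IsPGroup.iff_card.mp hXp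
      have hp1 : (r * r) ^ (2 ^ j) = 1 := by
        rw [← hj]; exact congrArg Subtype.val (pow_card_eq_one' (x := (⟨r * r, h2⟩ : X)))
      have hd : q ∣ 2 ^ (j + 1) := by
        rw [← hord]
        refine orderOf_dvd_of_pow_eq_one ?_
        rw [pow_succ', pow_mul, pow_two]; exact hp1
      exact hne.1 ((Nat.prime_dvd_prime_iff_eq hq Nat.prime_two).mp (hq.dvd_of_dvd_pow hd))
    have hmod := hpg.card_modEq_card_fixedPoints Xb
    let Fx : Subgroup (G ⧸ S.scalars) := Xb ⊓ Subgroup.centralizer ({π r} : Set (G ⧸ S.scalars))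
    have hFx : Nat.card (MulAction.fixedPoints (Subgroup.zpowers r) Xb) = Nat.card Fx := by
      refine Nat.card_congr
        { toFun := fun c => ⟨c.1, c.1.2, ?_⟩
          invFun := fun c => ⟨⟨c, c.2.1⟩, fun g => ?_⟩
          left_inv := fun c => rfl
          right_inv := fun c => rfl }
      · have h := congrArg Subtype.val (c.2 ⟨r, Subgroup.mem_zpowers r⟩)
        exact Subgroup.mem_centralizer_singleton_iff.mpr (mul_inv_eq_iff_eq_mul.mp h).symm
      · obtain ⟨n, hn⟩ := Subgroup.mem_zpowers_iff.mp g.2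
        refine Subtype.ext ?_
        change π (g : G) * (c : G ⧸ S.scalars) * (π (g : G))⁻¹ = c
        rw [← hn, map_zpow]
        have h := Subgroup.mem_centralizer_singleton_iff.mp c.2.2
        have h' : Commute (π r) (c : G ⧸ S.scalars) := h.symm
        rw [(h'.zpow_left n).eq, mul_inv_cancel_right]
    have hFlt : Nat.card Fx < Nat.card Xb := by
      refine lt_of_le_of_ne (Subgroup.card_le_of_le inf_le_left) fun e => hnfix fun x hx => ?_
      have hEq : Fx = Xb := Subgroup.eq_of_le_of_card_ge inf_le_left e.ge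
      have hm : π x ∈ Fx := hEq ▸ Subgroup.mem_map_of_mem _ hx
      have h := Subgroup.mem_centralizer_singleton_iff.mp hm.2
      refine (QuotientGroup.eq_one_iff _).mp ?_
      change π ⁅r, x⁆ = 1
      rw [map_commutatorElement, commutatorElement_eq_one_iff_mul_comm]
      exact h.symm
    obtain ⟨j, hj⟩ := IsPGroup.iff_card.mp ((hXp.map π).to_le (inf_le_left : Fx ≤ Xb))
    rw [hFx] at hmod
    have hq16 : q < 18 := by
      have h16 : Nat.card Xb < 17 := by omega
      have := Nat.le_of_dvd (by omega) ((Nat.modEq_iff_dvd' hFlt.le).mp hmod.symm)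
      omega
    have h4 := small_primes ⟨q, hq16⟩ hq (hdvd.trans hcardG)
    simp only at h4
    rcases h4 with h | h | h | h
    · exact hne.1 h
    · exact S.not_three_dvd le_rfl (h ▸ hdvd)
    · exact hne.2 h
    · subst h
      rw [hk, hj] at hmod
      rw [hk, hj] at hFlt
      have hjk : j < k := (Nat.pow_lt_pow_iff_right (by norm_num)).mp hFlt
      have := congrArg Fin.val (thirteen_key ⟨k, by omega⟩ ⟨j, by omega⟩ hmod)
      simp at this
      omega
  -- R = X
  have hRX : S.R ≤ X := by
    by_contra hne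
    let ρ := QuotientGroup.mk' X
    have hρ : Function.Surjective ρ := QuotientGroup.mk'_surjective _
    set Rb : Subgroup (G ⧸ X) := S.R.map ρ
    haveI : Rb.Normal := Subgroup.Normal.map inferInstance ρ hρ
    haveI : Group.IsSolvable Rb := Group.isSolvable_of_surjective (ρ.subgroupMap_surjective S.R)
    haveI : Nontrivial Rb := (Subgroup.nontrivial_iff_ne_bot _).mpr fun e => hne (by
      have := (Subgroup.map_eq_bot_iff _).mp e
      rwa [QuotientGroup.ker_mk'] at this)
    have hRd : Nat.card Rb ∣ Nat.card S.R := Subgroup.card_map_dvd _ _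
    have hcores : ∀ q : Nat.Primes, (q : ℕ) ≠ 5 → pCore (q : ℕ) Rb = ⊥ := by
      intro q hq5
      haveI := Fact.mk q.2
      have hpg := Core.isPGroup_pCore (q : ℕ) Rb
      by_contra hne'
      haveI : Nontrivial (pCore (q : ℕ) Rb) := (Subgroup.nontrivial_iff_ne_bot _).mpr hne'
      have hqd : (q : ℕ) ∣ Nat.card (pCore (q : ℕ) Rb) := by
        obtain ⟨n, hn⟩ := IsPGroup.iff_card.mp hpg
        rw [hn]
        refine dvd_pow_self _ fun h0 => ?_
        rw [h0, pow_zero] at hn
        exact absurd hn (Finite.one_lt_card).ne'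
      rcases hprimes q q.2 ((hqd.trans (Subgroup.card_subgroup_dvd_card _)).trans hRd) with h | h
      · let P : Subgroup (G ⧸ X) := (pCore (q : ℕ) Rb).map Rb.subtype
        haveI : P.Normal := Core.normal_map_subtype_of_characteristic _
        have hP2 : IsPGroup 2 P := h ▸ (hpg.map _)
        have hN : IsPGroup 2 (P.comap ρ : Subgroup G) := by
          refine hP2.comap_of_ker_isPGroup ρ ?_
          rw [QuotientGroup.ker_mk']; exact hXp
        have hNR : P.comap ρ ≤ S.R := by
          refine (Subgroup.comap_mono (Subgroup.map_subtype_le _)).trans ?_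
          rw [Subgroup.comap_map_eq, QuotientGroup.ker_mk']
          exact sup_le le_rfl hXR
        have hbot : P = ⊥ := by
          rw [← Subgroup.map_comap_eq_self_of_surjective hρ P, Subgroup.map_eq_bot_iff,
            QuotientGroup.ker_mk']
          exact hXtop _ inferInstance hNR hN
        exact hne' ((Subgroup.map_eq_bot_iff_of_injective _ Rb.subtype_injective).mp hbot)
      · exact hq5 h
    haveI : Fact (Nat.Prime 5) := ⟨by norm_num⟩
    set F := fittingSubgroup Rb with hFdef
    have hF5 : F ≤ pCore 5 Rb := by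
      rw [hFdef, Core.fittingSubgroup_eq_iSup]
      refine iSup_le fun q => ?_
      by_cases h5 : (q : ℕ) = 5
      · rw [h5]
      · rw [hcores q h5]; exact bot_le
    have hFne : F ≠ ⊥ := fun e => by
      have h := Core.centralizer_fittingSubgroup_le (G := Rb)
      rw [← hFdef, e] at h
      obtain ⟨x, hx⟩ := exists_ne (1 : Rb)
      exact hx (Subgroup.mem_bot.mp (h fun y hy => by
        rw [SetLike.mem_coe, Subgroup.mem_bot] at hy; rw [hy, one_mul, mul_one]))
    have hF5card : Nat.card F = 5 := by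
      obtain ⟨n, hn⟩ := IsPGroup.iff_card.mp ((Core.isPGroup_pCore 5 Rb).to_le hF5)
      have hd : 5 ^ n ∣ 24261120 := hn ▸
        ((Subgroup.card_subgroup_dvd_card F).trans hRd).trans hcardG
      have hn2 : n < 2 := by
        by_contra h
        exact absurd ((pow_dvd_pow 5 (show 2 ≤ n by omega)).trans hd) (by decide)
      interval_cases n
      · exact absurd (Subgroup.eq_bot_of_card_eq F (by rw [hn, pow_zero])) hFne
      · rw [hn, pow_one]
    let Fm : Subgroup (G ⧸ X) := F.map Rb.subtype
    haveI : Fm.Normal := Core.normal_map_subtype_of_characteristic _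
    have hFm : Nat.card Fm = 5 := by
      rw [Subgroup.card_map_of_injective Rb.subtype_injective, hF5card]
    haveI : IsCyclic Fm := isCyclic_of_prime_card hFm
    let φ : G ⧸ X →* MulAut Fm := MulAut.conjNormal
    have hφR : ∀ r ∈ Rb, φ r = 1 := by
      rintro _ ⟨r, hr, rfl⟩
      have hk : commutator G ≤ (φ.comp ρ).ker := by
        rw [commutator_eq_closure, Subgroup.closure_le]
        rintro _ ⟨x, y, rfl⟩
        rw [SetLike.mem_coe, MonoidHom.mem_ker, map_commutatorElement,
          commutatorElement_eq_one_iff_mul_comm]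
        apply (IsCyclic.mulAutMulEquiv Fm).injective
        rw [map_mul, map_mul, mul_comm]
      exact hk (S.R_le_commutator hr)
    have hRF : Rb ≤ Fm := by
      intro r hr
      refine ⟨⟨r, hr⟩, Core.centralizer_fittingSubgroup_le (G := Rb) ?_, rfl⟩
      intro y hy
      refine Subtype.ext ?_
      have h := congrArg Subtype.val (DFunLike.congr_fun (hφR r hr) ⟨(y : G ⧸ X), y, hy, rfl⟩)
      simp only [φ, MulAut.conjNormal_apply, MulAut.one_apply] at h
      exact (mul_inv_eq_iff_eq_mul.mp h).symm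
    have hb1 : φ (ρ S.b) = 1 := by
      refine hom_eq_one φ (by rw [← map_pow, S.b3, map_one]) ?_
      rw [IsCyclic.card_mulAut, hFm, Nat.totient_prime (by norm_num)]
      decide
    have hbot : Rb ≤ ⊥ := by
      rintro _ ⟨r, hr, rfl⟩
      have hr' : r ∈ ⁅S.R, Subgroup.zpowers S.b⁆ := by rw [← S.comm]; exact hr
      have hle : ⁅S.R, Subgroup.zpowers S.b⁆ ≤ (⊥ : Subgroup (G ⧸ X)).comap ρ := by
        rw [Subgroup.commutator_le]
        intro s hs y hy
        obtain ⟨n, rfl⟩ := Subgroup.mem_zpowers_iff.mp hy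
        rw [Subgroup.mem_comap, Subgroup.mem_bot, map_commutatorElement,
          commutatorElement_eq_one_iff_mul_comm]
        have h1 : φ (ρ (S.b ^ n)) = 1 := by rw [map_zpow, map_zpow, hb1, one_zpow]
        have h := congrArg Subtype.val
          (DFunLike.congr_fun h1 ⟨ρ s, hRF (Subgroup.mem_map_of_mem _ hs)⟩)
        simp only [φ, MulAut.conjNormal_apply, MulAut.one_apply] at h
        exact (mul_inv_eq_iff_eq_mul.mp h).symm
      exact hle hr'
    exact (Subgroup.nontrivial_iff_ne_bot Rb).mp inferInstance (le_bot_iff.mp hbot)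
  -- the four group spans a non-scalar abelian normal subgroup
  let gens : Set G := Set.range S.q ∪ {s | s ∈ S.scalars ∧ s ∈ S.R}
  let A : Subgroup G := Subgroup.closure gens
  have hgsq : ∀ g ∈ gens, g * g = 1 := by
    rintro g (⟨i, rfl⟩ | ⟨h, _⟩)
    · exact S.q_sq i
    · exact S.scalars_sq h
  have hgR : ∀ g ∈ gens, g ∈ S.R := by
    rintro g (⟨i, rfl⟩ | ⟨_, h⟩)
    · exact S.q_mem i
    · exact h
  have hgc : ∀ g ∈ gens, ∀ g' ∈ gens, g * g' = g' * g := by
    rintro g (⟨i, rfl⟩ | ⟨h, _⟩) g' hg'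
    · rcases hg' with ⟨j, rfl⟩ | ⟨h', _⟩
      · exact S.q_comm i j
      · exact (S.scalars_central h' _).symm
    · exact S.scalars_central h _
  have hAR : A ≤ S.R := (Subgroup.closure_le _).mpr hgR
  have hAc : A ≤ Subgroup.centralizer (A : Set G) :=
    (Subgroup.closure_le _).mpr fun g hg => by
      intro a ha
      have hle : A ≤ Subgroup.centralizer ({g} : Set G) := (Subgroup.closure_le _).mpr fun g' hg' =>
        Subgroup.mem_centralizer_singleton_iff.mpr (hgc g' hg' g hg)
      exact Subgroup.mem_centralizer_singleton_iff.mp (hle ha)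
  have hAsq : ∀ a ∈ A, a * a = 1 := by
    intro a ha
    induction ha using Subgroup.closure_induction with
    | mem x hx => exact hgsq x hx
    | one => exact one_mul 1
    | mul x y hx hy ihx ihy =>
      rw [mul_assoc, ← mul_assoc y, hAc hx y hy, mul_assoc x y y, ihy, mul_one, ihx]
    | inv x _ ih => rw [← mul_inv_rev, ih, inv_one]
  have hAn : A.Normal := by
    refine ⟨fun a ha g => ?_⟩
    suffices h : g ∈ Subgroup.normalizer (A : Set G) from
      (Subgroup.mem_normalizer_iff.mp h a).mp ha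
    have hle : ∀ y : G, (∀ x ∈ gens, y * x * y⁻¹ ∈ A) → ∀ x ∈ A, y * x * y⁻¹ ∈ A := by
      intro y hy x hx
      have : A ≤ A.comap (MulAut.conj y).toMonoidHom := (Subgroup.closure_le _).mpr hy
      exact this hx
    have hR : ∀ y ∈ S.R, ∀ x ∈ A, y * x * y⁻¹ ∈ A := fun y hy => hle y fun x hx => by
      have e : y * x * y⁻¹ = ⁅y, x⁆ * x := by rw [commutatorElement_def]; group
      rw [e]
      exact A.mul_mem (Subgroup.subset_closure (Or.inr ⟨hcls y (hRX hy) x (hRX (hgR x hx)),
        S.R.mul_mem (S.R.mul_mem (S.R.mul_mem hy (hgR x hx)) (S.R.inv_mem hy)) (S.R.inv_mem (hgR x hx))⟩))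
        (Subgroup.subset_closure hx)
    have hb : ∀ x ∈ A, S.b * x * S.b⁻¹ ∈ A := hle _ fun x hx => by
      rcases hx with ⟨i, rfl⟩ | ⟨h, h'⟩
      · rw [S.q_conj]; exact Subgroup.subset_closure (Or.inl ⟨_, rfl⟩)
      · rw [← S.scalars_central h, mul_inv_cancel_right]
        exact Subgroup.subset_closure (Or.inr ⟨h, h'⟩)
    have hN : S.R ⊔ Subgroup.zpowers S.b ≤ Subgroup.normalizer (A : Set G) := by
      refine sup_le (fun y hy => ?_) ?_
      · refine Subgroup.mem_normalizer_iff.mpr fun x => ⟨hR y hy x, fun h => ?_⟩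
        have := hR y⁻¹ (S.R.inv_mem hy) _ h
        rwa [show y⁻¹ * (y * x * y⁻¹) * y⁻¹⁻¹ = x by group] at this
      · rw [Subgroup.zpowers_le]
        refine Subgroup.mem_normalizer_iff.mpr fun x => ⟨hb x, fun h => ?_⟩
        have := hb _ (hb _ h)
        rwa [show S.b * (S.b * (S.b * x * S.b⁻¹) * S.b⁻¹) * S.b⁻¹ =
          (S.b * S.b * S.b) * x * (S.b * S.b * S.b)⁻¹ by group, hb3, one_mul, inv_one, mul_one] at this
    exact hN (S.gen ▸ Subgroup.mem_top g)
  exact S.q_not_scalar (hNW A hAn hAR hAsq (Subgroup.subset_closure (Or.inl ⟨0, rfl⟩)))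

end Cfsg.Agent.CubicModule
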